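import Mathlib

/-! The subgroups `[h, ⟨x⟩]` of an automorphism `x` of order `p` prime to the group order,
the subgroup they generate, and the subgroup generated by their fixed points. -/

set_option autoImplicit false

namespace Cfsg.Agent.H84.DispFix

variable {H : Type*} [Group H] (x : MulAut H)

/-- The subgroup `[h, ⟨x⟩]`. -/
def D (h : H) : Subgroup H := Subgroup.closure {c : H | ∃ i : ℕ, c = h⁻¹ * (x ^ i) h}

/-- The subgroup generated by the `[k, ⟨x⟩]` for `k ∈ K`. -/
def DispIn (K : Subgroup H) : Subgroup H :=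
  Subgroup.closure {c : H | ∃ h ∈ K, ∃ i : ℕ, c = h⁻¹ * (x ^ i) h}

/-- The fixed points of `x`. -/
def Fx : Subgroup H := (x : H →* H).eqLocus (MonoidHom.id H)

/-- The subgroup generated by the fixed points in the `[h, ⟨x⟩]`. -/
def C0 : Subgroup H := ⨆ h : H, D x h ⊓ Fx x

/-- The invariance of a subgroup under `x`. -/
def Invar (K : Subgroup H) : Prop := ∀ k ∈ K, x k ∈ K

variable {x}

theorem mem_Fx {c : H} : c ∈ Fx x ↔ x c = c := Iff.rfl

theorem pow_fix {c : H} (hc : c ∈ Fx x) (i : ℕ) : (x ^ i) c = c := by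
  induction i with
  | zero => rfl
  | succ i ih => rw [pow_succ', MulAut.mul_apply, ih, mem_Fx.1 hc]

theorem Invar.pow {K : Subgroup H} (hK : Invar x K) {k : H} (hk : k ∈ K) (i : ℕ) :
    (x ^ i) k ∈ K := by
  induction i with
  | zero => exact hk
  | succ i ih => rw [pow_succ', MulAut.mul_apply]; exact hK _ ih

theorem invar_top : Invar x (⊤ : Subgroup H) := fun _ _ => Subgroup.mem_top _

theorem invar_inf {K L : Subgroup H} (hK : Invar x K) (hL : Invar x L) : Invar x (K ⊓ L) :=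
  fun k hk => ⟨hK k hk.1, hL k hk.2⟩

theorem invar_closure {S : Set H} (hS : ∀ s ∈ S, x s ∈ Subgroup.closure S) :
    Invar x (Subgroup.closure S) := fun k hk =>
  (Subgroup.closure_le ((Subgroup.closure S).comap (x : H →* H))).2 hS hk

theorem invar_sup {K L : Subgroup H} (hK : Invar x K) (hL : Invar x L) : Invar x (K ⊔ L) :=
  fun _ hk => sup_le (c := (K ⊔ L).comap (x : H →* H))
    (fun k h => Subgroup.mem_comap.2 (le_sup_left (a := K) (hK k h)))
    (fun k h => Subgroup.mem_comap.2 (le_sup_right (a := K) (hL k h))) hk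

theorem invar_Fx : Invar x (Fx x) := fun k hk => by
  show x (x k) = x k
  rw [mem_Fx.1 hk]; exact mem_Fx.1 hk

theorem invar_commutator {K L : Subgroup H} (hK : Invar x K) (hL : Invar x L) :
    Invar x ⁅K, L⁆ := fun _ hk =>
  (Subgroup.commutator_le (H₁ := K) (H₂ := L) (H₃ := ⁅K, L⁆.comap (x : H →* H))).2
    (fun a ha b hb => by
      rw [Subgroup.mem_comap, map_commutatorElement]
      exact Subgroup.commutator_mem_commutator (hK a ha) (hL b hb)) hk

theorem invar_of_characteristic (K : Subgroup H) [hK : K.Characteristic] : Invar x K :=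
  fun k hk => by
    have h := (Subgroup.characteristic_iff_map_eq.1 hK) x
    rw [← h]
    exact ⟨k, hk, rfl⟩

theorem mem_D (h : H) (i : ℕ) : h⁻¹ * (x ^ i) h ∈ D x h := Subgroup.subset_closure ⟨i, rfl⟩

theorem E_mem_D (h : H) : h⁻¹ * x h ∈ D x h := by
  simpa using mem_D (x := x) h 1

theorem invar_D (h : H) : Invar x (D x h) := invar_closure (by
  rintro _ ⟨i, rfl⟩
  have e : x (h⁻¹ * (x ^ i) h) = (h⁻¹ * x h)⁻¹ * (h⁻¹ * (x ^ (i + 1)) h) := by
    rw [pow_succ', MulAut.mul_apply, map_mul, map_inv]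
    group
  rw [e]
  exact mul_mem (inv_mem (E_mem_D h)) (mem_D h (i + 1)))

theorem mem_DispIn {K : Subgroup H} {h : H} (hh : h ∈ K) (i : ℕ) :
    h⁻¹ * (x ^ i) h ∈ DispIn x K := Subgroup.subset_closure ⟨h, hh, i, rfl⟩

theorem D_le_DispIn {K : Subgroup H} {h : H} (hh : h ∈ K) : D x h ≤ DispIn x K :=
  (Subgroup.closure_le _).2 (by rintro _ ⟨i, rfl⟩; exact mem_DispIn hh i)

theorem DispIn_le {K L : Subgroup H} (h : ∀ k ∈ K, D x k ≤ L) : DispIn x K ≤ L :=
  (Subgroup.closure_le _).2 (by rintro _ ⟨k, hk, i, rfl⟩; exact h k hk (mem_D k i))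

theorem DispIn_mono {K L : Subgroup H} (h : K ≤ L) : DispIn x K ≤ DispIn x L :=
  DispIn_le fun _ hk => D_le_DispIn (h hk)

theorem invar_DispIn (K : Subgroup H) : Invar x (DispIn x K) := invar_closure (by
  rintro _ ⟨h, hh, i, rfl⟩
  exact D_le_DispIn hh (invar_D h _ (mem_D h i)))

theorem DispIn_le_self {K : Subgroup H} (hK : Invar x K) : DispIn x K ≤ K :=
  (Subgroup.closure_le _).2 (by
    rintro _ ⟨h, hh, i, rfl⟩; exact mul_mem (inv_mem hh) (hK.pow hh i))

theorem le_normalizer_DispIn (K : Subgroup H) :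
    K ≤ Subgroup.normalizer (DispIn x K : Set H) := by
  have key : ∀ g ∈ K, ∀ n ∈ DispIn x K, g * n * g⁻¹ ∈ DispIn x K := by
    intro g hg n hn
    refine (Subgroup.closure_le ((DispIn x K).comap (MulAut.conj g).toMonoidHom)).2 ?_ hn
    rintro _ ⟨h, hh, i, rfl⟩
    show g * (h⁻¹ * (x ^ i) h) * g⁻¹ ∈ DispIn x K
    have e : g * (h⁻¹ * (x ^ i) h) * g⁻¹ =
        ((h * g⁻¹)⁻¹ * (x ^ i) (h * g⁻¹)) * ((g⁻¹)⁻¹ * (x ^ i) g⁻¹)⁻¹ := by
      simp only [map_mul, mul_inv_rev, inv_inv]
      group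
    rw [e]
    exact mul_mem (mem_DispIn (mul_mem hh (inv_mem hg)) i)
      (inv_mem (mem_DispIn (inv_mem hg) i))
  intro g hg
  rw [Subgroup.mem_normalizer_iff]
  refine fun n => ⟨key g hg n, fun h => ?_⟩
  have := key g⁻¹ (inv_mem hg) _ h
  simpa [mul_assoc] using this

instance normal_DispIn_top : (DispIn x (⊤ : Subgroup H)).Normal :=
  Subgroup.normalizer_eq_top_iff.1 (top_unique (le_normalizer_DispIn ⊤))

theorem C0_le_Fx : C0 x ≤ Fx x := iSup_le fun _ => inf_le_right

theorem le_C0 (h : H) : D x h ⊓ Fx x ≤ C0 x := le_iSup (fun h => D x h ⊓ Fx x) h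

theorem conj_mem_C0 {c d : H} (hc : c ∈ Fx x) (hd : d ∈ C0 x) : c * d * c⁻¹ ∈ C0 x := by
  refine (iSup_le (a := (C0 x).comap (MulAut.conj c).toMonoidHom) fun h => ?_ :
    C0 x ≤ (C0 x).comap (MulAut.conj c).toMonoidHom) hd
  rintro y ⟨hy, hyF⟩
  show c * y * c⁻¹ ∈ C0 x
  refine le_C0 (c * h * c⁻¹) ⟨?_, (Fx x).mul_mem ((Fx x).mul_mem hc hyF) ((Fx x).inv_mem hc)⟩
  refine (Subgroup.closure_le ((D x (c * h * c⁻¹)).comap (MulAut.conj c).toMonoidHom)).2 ?_ hy
  rintro _ ⟨i, rfl⟩
  show c * (h⁻¹ * (x ^ i) h) * c⁻¹ ∈ D x (c * h * c⁻¹)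
  have e : c * (h⁻¹ * (x ^ i) h) * c⁻¹ = (c * h * c⁻¹)⁻¹ * (x ^ i) (c * h * c⁻¹) := by
    rw [map_mul, map_mul, map_inv, pow_fix hc]
    group
  rw [e]
  exact mem_D _ i

theorem normalises_C0 {c : H} (hc : c ∈ Fx x) : c ∈ Subgroup.normalizer (C0 x : Set H) := by
  rw [Subgroup.mem_normalizer_iff]
  refine fun n => ⟨conj_mem_C0 hc, fun h => ?_⟩
  have := conj_mem_C0 (inv_mem hc) h
  simpa [mul_assoc] using this

section Finite

variable [Finite H] {p : ℕ} [hp : Fact p.Prime]

/-- An invariant coset of an invariant subgroup has a fixed point. -/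
theorem exists_fixed_mul (hx : x ^ p = 1) (hcop : (Nat.card H).Coprime p) {K : Subgroup H}
    (hK : Invar x K) {h : H} (hh : h⁻¹ * x h ∈ K) : ∃ k ∈ K, x (h * k) = h * k := by
  classical
  let f : K → K := fun k => ⟨(h⁻¹ * x h) * x k, mul_mem hh (hK _ k.2)⟩
  have hf : ∀ (i : ℕ) (k : K), ((f^[i]) k : H) = h⁻¹ * (x ^ i) h * (x ^ i) (k : H) := by
    intro i
    induction i with
    | zero => intro k; simp
    | succ i ih =>
      intro k
      rw [Function.iterate_succ_apply']
      show (h⁻¹ * x h) * x ((f^[i]) k : H) = _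
      rw [ih, pow_succ', MulAut.mul_apply, MulAut.mul_apply, map_mul, map_mul, map_inv]
      group
  have hinj : Function.Injective f := fun a b hab => by
    have e : h⁻¹ * x h * x (a : H) = h⁻¹ * x h * x (b : H) := congrArg Subtype.val hab
    exact Subtype.ext (x.injective (mul_left_cancel e))
  let σ : Equiv.Perm K := Equiv.ofBijective f (Finite.injective_iff_bijective.1 hinj)
  have hσ : σ ^ p ^ 1 = 1 := by
    rw [pow_one]
    refine Equiv.ext fun k => Subtype.ext ?_
    rw [Equiv.Perm.coe_pow]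
    show ((f^[p]) k : H) = k
    rw [hf, hx]; simp
  haveI := Fintype.ofFinite K
  obtain ⟨k, hk⟩ := Equiv.Perm.exists_fixed_point_of_prime (p := p) (σ := σ) (by
    rw [← Nat.card_eq_fintype_card]
    intro hd
    exact hp.out.not_dvd_one (hcop.symm.dvd_of_dvd_mul_left (by
      simpa using hd.trans (Subgroup.card_subgroup_dvd_card K)))) hσ
  refine ⟨k, k.2, ?_⟩
  have e : h⁻¹ * x h * x (k : H) = k := congrArg Subtype.val hk
  rw [map_mul]
  calc x h * x (k : H) = h * (h⁻¹ * x h * x (k : H)) := by group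
    _ = h * k := by rw [e]

/-- Every element of an invariant subgroup is a fixed one times a displacement. -/
theorem exists_fix_mul (hx : x ^ p = 1) (hcop : (Nat.card H).Coprime p) {Q : Subgroup H}
    (hQ : Invar x Q) {q : H} (hq : q ∈ Q) :
    ∃ c ∈ Q ⊓ Fx x, ∃ d ∈ DispIn x Q, q = c * d := by
  obtain ⟨k, hk, hfix⟩ := exists_fixed_mul hx hcop (invar_DispIn Q) (h := q)
    (by simpa using mem_DispIn (x := x) hq 1)
  exact ⟨q * k, ⟨mul_mem hq (DispIn_le_self hQ hk), hfix⟩, k⁻¹, inv_mem hk, by group⟩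

theorem DispIn_DispIn_top (hx : x ^ p = 1) (hcop : (Nat.card H).Coprime p) :
    DispIn x (DispIn x (⊤ : Subgroup H)) = DispIn x ⊤ := by
  refine le_antisymm (DispIn_mono le_top) (DispIn_le fun h _ => ?_)
  obtain ⟨c, ⟨-, hc⟩, d, hd, rfl⟩ := exists_fix_mul hx hcop invar_top (Subgroup.mem_top h)
  refine (Subgroup.closure_le _).2 ?_
  rintro _ ⟨i, rfl⟩
  rw [map_mul, pow_fix hc]
  have e : (c * d)⁻¹ * (c * (x ^ i) d) = d⁻¹ * (x ^ i) d := by group
  rw [e]
  exact mem_DispIn hd i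

/-- If the displacements generate, the fixed points lie in the derived subgroup. -/
theorem Fx_le_commutator (hx : x ^ p = 1) (hcop : (Nat.card H).Coprime p)
    (htop : DispIn x (⊤ : Subgroup H) = ⊤) : Fx x ≤ commutator H := by
  intro c hc
  set ν : H →* Abelianization H :=
    ∏ i ∈ Finset.range p, Abelianization.of.comp ((x ^ i : MulAut H) : H →* H) with hν
  have hνa : ∀ h, ν h = ∏ i ∈ Finset.range p, Abelianization.of ((x ^ i) h) := fun h => by
    rw [hν, MonoidHom.finsetProd_apply]; rfl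
  have hνx : ∀ h, ν (x h) = ν h := fun h => by
    rw [hνa, hνa]
    have e : ∀ i, (x ^ i) (x h) = (x ^ (i + 1)) h := fun i => by
      rw [pow_succ, MulAut.mul_apply]
    simp only [e]
    have h1 := Finset.prod_range_succ' (fun i => Abelianization.of ((x ^ i) h)) p
    rw [Finset.prod_range_succ, hx] at h1
    simp only [pow_zero] at h1
    exact (mul_right_cancel h1).symm
  have hνpow : ∀ i h, ν ((x ^ i) h) = ν h := by
    intro i h
    induction i with
    | zero => rfl
    | succ i ih => rw [pow_succ', MulAut.mul_apply, hνx, ih]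
  have hker : (⊤ : Subgroup H) ≤ ν.ker := by
    rw [← htop]
    refine (Subgroup.closure_le _).2 ?_
    rintro _ ⟨h, -, i, rfl⟩
    show ν (h⁻¹ * (x ^ i) h) = 1
    rw [map_mul, map_inv, hνpow, inv_mul_cancel]
  have hone : ν c = 1 := hker (Subgroup.mem_top c)
  rw [hνa] at hone
  simp only [pow_fix hc, Finset.prod_const, Finset.card_range] at hone
  rw [← map_pow, ← MonoidHom.mem_ker, Abelianization.ker_of] at hone
  obtain ⟨m, hm⟩ := exists_pow_eq_self_of_coprime
    (x := c) (n := p) (hcop.symm.coprime_dvd_right (orderOf_dvd_natCard c))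
  rw [← hm]
  exact pow_mem hone m

end Finite

end Cfsg.Agent.H84.DispFix
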