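import Cfsg.Agent.H84.DispFix.Reduce
import Cfsg.Agent.H84.FixedCube
import Cfsg.Agent.H19.SchurZassenhaus
import Cfsg.Agent.H20.SchurZassenhaus

/-! The displacement fixed point theorem when the group is a module times an `r`-group. -/

set_option autoImplicit false

open scoped Pointwise IsMulCommutative

universe u

namespace Cfsg.Agent.H84.DispFix

variable {H : Type u} [Group H] {x : MulAut H}

theorem normal_of_sup {A B N : Subgroup H} (h : A ⊔ B = ⊤)
    (hA : A ≤ Subgroup.normalizer (N : Set H)) (hB : B ≤ Subgroup.normalizer (N : Set H)) :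
    N.Normal :=
  Subgroup.normalizer_eq_top_iff.1 (top_unique (h ▸ sup_le hA hB))

variable [Finite H] {p : ℕ} [hp : Fact p.Prime]

theorem le_C0_of_pow {q N : ℕ} {w : H} (hw : w ^ q = 1) (hN : N.Coprime q) (h : w ^ N ∈ C0 x) :
    w ∈ C0 x := by
  obtain ⟨m, hm⟩ := exists_pow_eq_self_of_coprime
    (hN.coprime_dvd_right (orderOf_dvd_of_pow_eq_one hw))
  rw [← hm]
  exact pow_mem h m

/-- The case `H = V R` of the displacement fixed point theorem. -/
theorem inf_Fx_le_of_sup_eq_top [Group.IsSolvable H] (hB : Below.{u} p (Nat.card H))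
    (hp2 : p ≠ 2) (hx : x ^ p = 1) (hcop : (Nat.card H).Coprime p)
    (htop : DispIn x (⊤ : Subgroup H) = ⊤) (V R : Subgroup H) [hVn : V.Normal]
    [IsMulCommutative V] (hV : Invar x V) (hR : Invar x R) {q r : ℕ} [hq : Fact q.Prime]
    [hr : Fact r.Prime] (hrq : r ≠ q) (hVq : ∀ v ∈ V, v ^ q = 1) (hRr : IsPGroup r R)
    (hsup : V ⊔ R = ⊤)
    (hmin : ∀ U : Subgroup H, U.Normal → Invar x U → U ≤ V → U = ⊥ ∨ U = V)
    (hfree : ∀ v ∈ V, (∀ a ∈ R, a * v = v * a) → v = 1)
    (hchief : ∀ N : Subgroup H, N.Normal → Invar x N →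
      Subgroup.centralizer (V : Set H) ≤ N → N = Subgroup.centralizer (V : Set H) ∨ N = ⊤)
    (hnc : Subgroup.centralizer (V : Set H) ≠ ⊤) : V ⊓ Fx x ≤ C0 x := by
  classical
  set Kv := Subgroup.centralizer (V : Set H) with hKv
  have hVK : V ≤ Kv := Subgroup.le_centralizer V
  have hVne : V ≠ ⊤ := fun e => hnc (top_unique (e ▸ hVK))
  have hKi : Invar x Kv := fun k hk => by
    rw [hKv, Subgroup.mem_centralizer_iff] at hk ⊢
    intro v hv
    have h1 : (x ^ (p - 1)) v ∈ V := hV.pow hv _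
    have h2 : x ((x ^ (p - 1)) v) = v := by
      rw [← MulAut.mul_apply, ← pow_succ', Nat.sub_add_cancel hp.out.one_le, hx]; rfl
    have h3 := congrArg x (hk _ h1)
    rwa [map_mul, map_mul, h2] at h3
  intro w hw
  have hwq : w ^ q = 1 := hVq w hw.1
  have hcoprime : ∀ {S : Subgroup H}, S ≤ R → (Nat.card S).Coprime q := fun {S} hS => by
    obtain ⟨n, hn⟩ := (hRr.to_le hS).exists_card_eq
    rw [hn]
    exact Nat.Coprime.pow_left n ((Nat.coprime_primes hr.out hq.out).2 hrq)
  by_cases hW : R ⊓ Kv ≠ ⊥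
  · haveI : (R ⊓ Kv).Normal := by
      refine normal_of_sup hsup (fun v hv => ?_) fun a ha => ?_
      · rw [Subgroup.mem_normalizer_iff]
        have key : ∀ s ∈ R ⊓ Kv, v * s = s * v := fun s hs =>
          (Subgroup.mem_centralizer_iff.1 hs.2 v hv)
        intro s
        constructor
        · intro hs; rw [key s hs, mul_inv_cancel_right]; exact hs
        · intro hs
          have h1 := key _ hs
          have h2 : v * s * v⁻¹ = s := by
            have h3 : v * (v * s * v⁻¹) * v⁻¹ = v * s * v⁻¹ * v * v⁻¹ := by rw [h1]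
            rw [mul_inv_cancel_right] at h3
            exact mul_left_cancel (mul_right_cancel h3)
          rwa [h2] at hs
      · rw [Subgroup.mem_normalizer_iff]
        intro s
        constructor
        · exact fun hs => ⟨R.mul_mem (R.mul_mem ha hs.1) (R.inv_mem ha),
            (inferInstance : Kv.Normal).conj_mem s hs.2 a⟩
        · intro hs
          have h1 : a⁻¹ * (a * s * a⁻¹) * a⁻¹⁻¹ = s := by group
          refine ⟨?_, ?_⟩
          · rw [← h1]; exact R.mul_mem (R.mul_mem (R.inv_mem ha) hs.1) (R.inv_mem (R.inv_mem ha))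
          · rw [← h1]; exact (inferInstance : Kv.Normal).conj_mem _ hs.2 a⁻¹
    obtain ⟨c0, hc0, u', hu', he⟩ := Subgroup.mem_sup_of_normal_right.1
      (Fx_le_C0_sup hB hx hcop htop _ (invar_inf hR hKi) hW hw.2 |>
        sup_le_sup_left (inf_le_left : (R ⊓ Kv) ⊓ Fx x ≤ R ⊓ Kv) (C0 x))
    refine le_C0_of_pow (N := Nat.card (R ⊓ Kv : Subgroup H)) hwq (hcoprime inf_le_left) ?_
    have hcm : Commute w u'⁻¹ :=
      (Commute.inv_right (Subgroup.mem_centralizer_iff.1 hu'.2 w hw.1))
    have hu1 : u' ^ Nat.card (R ⊓ Kv : Subgroup H) = 1 := orderOf_dvd_iff_pow_eq_one.1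
      (Subgroup.orderOf_dvd_natCard (R ⊓ Kv) hu')
    have hpow := pow_mem hc0 (Nat.card (R ⊓ Kv : Subgroup H))
    rw [show c0 = w * u'⁻¹ by rw [← he, mul_inv_cancel_right], hcm.mul_pow, inv_pow, hu1, inv_one,
      mul_one] at hpow
    exact hpow
  push Not at hW
  have hRV : ∀ a ∈ R, a ∈ V → a = 1 := fun a ha hv => by
    rw [← Subgroup.mem_bot (G := H), ← hW]; exact ⟨ha, hVK hv⟩
  let act : H →* MulAut V := MulAut.conjNormal (H := V)
  have hact : ∀ h (v : V), ((act h v : V) : H) = h * v * h⁻¹ := fun h v =>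
    MulAut.conjNormal_apply h v
  have hker : ∀ h, act h = 1 → h ∈ Kv := fun h e => by
    rw [hKv, Subgroup.mem_centralizer_iff]
    intro v hv
    have := hact h ⟨v, hv⟩
    rw [e] at this
    calc v * h = (h * v * h⁻¹) * h := by rw [← this]; rfl
      _ = h * v := by group
  have hinjR : ∀ a ∈ R, ∀ b ∈ R, act a = act b → a = b := fun a ha b hb e => by
    have h1 : b⁻¹ * a ∈ R ⊓ Kv :=
      ⟨R.mul_mem (R.inv_mem hb) ha, hker _ (by rw [map_mul, map_inv, e, inv_mul_cancel])⟩
    rw [hW, Subgroup.mem_bot, inv_mul_eq_one] at h1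
    exact h1.symm
  -- `R` is abelian and irreducible
  have hRcomm : ∀ a ∈ R, ∀ b ∈ R, a * b = b * a := by
    haveI hN : (Kv ⊔ ⁅R, R⁆).Normal :=
      normal_of_sup hsup (hVK.trans (le_sup_left.trans Subgroup.le_normalizer))
        (fun a ha => Subgroup.normalizer_inf_normalizer_le_normalizer_sup _ _
          ⟨(Subgroup.normalizer_eq_top (H := Kv)).symm ▸ Subgroup.mem_top a,
            Subgroup.normalizer_commutator_ge_left R R ha⟩)
    intro a ha b hb
    rcases hchief _ hN (invar_sup hKi (invar_commutator hR hR)) le_sup_left with h | h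
    · rw [← commutatorElement_eq_one_iff_mul_comm, ← Subgroup.mem_bot, ← hW]
      exact ⟨Subgroup.commutator_le_self R (Subgroup.commutator_mem_commutator ha hb),
        h ▸ Subgroup.mem_sup_right (Subgroup.commutator_mem_commutator ha hb)⟩
    · exfalso
      have hle : R ≤ ⁅R, R⁆ := fun c hc => by
        obtain ⟨k, hk, d, hd, rfl⟩ := Subgroup.mem_sup_of_normal_left.1
          (h ▸ Subgroup.mem_top c : c ∈ Kv ⊔ ⁅R, R⁆)
        have h1 : k ∈ R ⊓ Kv :=
          ⟨by simpa using mul_mem hc (inv_mem (Subgroup.commutator_le_self R hd)), hk⟩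
        rw [hW, Subgroup.mem_bot] at h1
        rwa [h1, one_mul]
      haveI : Group.IsNilpotent R := hRr.isNilpotent
      rcases subsingleton_or_nontrivial R with h' | h'
      · have hRb : R = ⊥ := Subgroup.eq_bot_of_subsingleton R
        rw [hRb, sup_bot_eq] at hsup
        exact hVne hsup
      · refine (Group.IsSolvable.commutator_lt_top_of_nontrivial R).ne (top_unique fun c _ => ?_)
        have hm : (commutator R).map R.subtype = ⁅R, R⁆ := by
          rw [commutator_def, Subgroup.map_commutator, ← MonoidHom.range_eq_map,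
            Subgroup.range_subtype]
        obtain ⟨c', hc', hcc⟩ := hm.symm ▸ hle c.2
        rwa [Subtype.ext hcc] at hc'
  have hirr : ∀ B ≤ R, Invar x B → B = ⊥ ∨ B = R := by
    intro B hBR hBi
    haveI hN : (Kv ⊔ B).Normal :=
      normal_of_sup hsup (hVK.trans (le_sup_left.trans Subgroup.le_normalizer))
        (fun a ha => Subgroup.normalizer_inf_normalizer_le_normalizer_sup _ _
          ⟨(Subgroup.normalizer_eq_top (H := Kv)).symm ▸ Subgroup.mem_top a,
            Subgroup.centralizer_le_normalizer _ (Subgroup.mem_centralizer_iff.2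
              fun b hb => hRcomm b (hBR hb) a ha)⟩)
    rcases hchief _ hN (invar_sup hKi hBi) le_sup_left with h | h
    · left
      rw [eq_bot_iff, ← hW]
      exact fun b hb => ⟨hBR hb, h ▸ Subgroup.mem_sup_right hb⟩
    · right
      refine le_antisymm hBR fun c hc => ?_
      obtain ⟨k, hk, d, hd, rfl⟩ := Subgroup.mem_sup_of_normal_left.1
        (h ▸ Subgroup.mem_top c : c ∈ Kv ⊔ B)
      have h1 : k ∈ R ⊓ Kv := ⟨by simpa using mul_mem hc (inv_mem (hBR hd)), hk⟩
      rw [hW, Subgroup.mem_bot] at h1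
      rwa [h1, one_mul]
  have hR0 : ∀ a ∈ R, x a = a → a = 1 := by
    intro a ha hax
    rcases hirr (R ⊓ Fx x) inf_le_left (invar_inf hR invar_Fx) with h | h
    · rw [← Subgroup.mem_bot (G := H), ← h]; exact ⟨ha, hax⟩
    · exfalso
      refine hVne (top_unique ?_)
      rw [← htop]
      refine (Subgroup.closure_le _).2 ?_
      rintro _ ⟨g, -, i, rfl⟩
      obtain ⟨v, hv, b, hb, rfl⟩ := Subgroup.mem_sup_of_normal_left.1
        (hsup.symm ▸ Subgroup.mem_top g : g ∈ V ⊔ R)
      rw [← h] at hb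
      rw [map_mul, pow_fix hb.2]
      have e : (v * b)⁻¹ * ((x ^ i) v * b) = b⁻¹ * (v⁻¹ * (x ^ i) v) * b⁻¹⁻¹ := by group
      rw [e]
      exact hVn.conj_mem _ (mul_mem (inv_mem hv) (hV.pow hv i)) _
  obtain ⟨a, ha, ha1⟩ : ∃ a ∈ R, a ≠ 1 := by
    by_contra hcon
    push Not at hcon
    rw [(Subgroup.eq_bot_iff_forall R).2 hcon, sup_bot_eq] at hsup
    exact hVne hsup
  have hDa : R ≤ D x a := by
    refine le_of_eq ((hirr (D x a) ?_ (invar_D a)).resolve_left fun e => ha1 (hR0 a ha ?_)).symm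
    · exact (Subgroup.closure_le _).2 (by
        rintro _ ⟨i, rfl⟩; exact mul_mem (inv_mem ha) (hR.pow ha i))
    · have := E_mem_D (x := x) a
      rw [e, Subgroup.mem_bot, inv_mul_eq_one] at this
      exact this.symm
  have hDsup : ∀ v ∈ V, V ⊔ D x (a * v) = ⊤ := by
    intro v hv
    refine top_unique (hsup ▸ sup_le le_sup_left (hDa.trans ((Subgroup.closure_le _).2 ?_)))
    rintro _ ⟨i, rfl⟩
    have e : a⁻¹ * (x ^ i) a = v * ((a * v)⁻¹ * (x ^ i) (a * v)) * ((x ^ i) v)⁻¹ := by
      rw [map_mul]; group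
    rw [e]
    exact mul_mem (mul_mem (Subgroup.mem_sup_left hv) (Subgroup.mem_sup_right (mem_D _ i)))
      (Subgroup.mem_sup_left (inv_mem (hV.pow hv i)))
  by_cases hbig : ∃ v ∈ V, D x (a * v) ⊓ V ≠ ⊥
  · obtain ⟨v, hv, hne⟩ := hbig
    haveI : (D x (a * v) ⊓ V).Normal := by
      refine normal_of_sup (hDsup v hv) (fun u hu => ?_) fun d hd => ?_
      · refine Subgroup.centralizer_le_normalizer _ (Subgroup.mem_centralizer_iff.2 fun s hs => ?_)
        exact congrArg Subtype.val (mul_comm (⟨s, hs.2⟩ : V) ⟨u, hu⟩)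
      · exact Subgroup.mem_normalizer_iff.2 fun s => and_congr
          (Subgroup.mem_normalizer_iff.1 (Subgroup.le_normalizer hd) s)
          (Subgroup.mem_normalizer_iff.1
            ((Subgroup.normalizer_eq_top (H := V)).symm ▸ Subgroup.mem_top d) s)
    have hV' := (hmin _ inferInstance (invar_inf (invar_D _) hV) inf_le_right).resolve_left hne
    have hDtop : D x (a * v) = ⊤ := by
      rw [← hDsup v hv, eq_comm, sup_eq_right, ← hV']
      exact inf_le_left
    exact le_C0 (a * v) ⟨hDtop.symm ▸ Subgroup.mem_top w, hw.2⟩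
  push Not at hbig
  exfalso
  -- every element of `V` is built from two fixed points
  have hVcard : ∀ S : Subgroup H, S ≤ V → (Nat.card R).Coprime (Nat.card S) := by
    intro S hS
    have hSq : IsPGroup q S := fun s => ⟨1, Subtype.ext (by simpa using hVq s.1 (hS s.2))⟩
    obtain ⟨n, hn⟩ := hSq.exists_card_eq
    rw [hn]
    exact (hcoprime le_rfl).pow_right n
  have hcompl : ∀ S : Subgroup H, S ⊓ V = ⊥ → V ⊔ S = ⊤ → Nat.card S = V.index := fun S h1 h2 =>
    H19.card_eq_index_of_isComplement' (Subgroup.isComplement'_of_disjoint_and_mul_eq_univ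
      (disjoint_iff.2 (inf_comm S V ▸ h1)) (by rw [← Subgroup.normal_mul, h2]; rfl))
  have hRi : R ⊓ V = ⊥ := (Subgroup.eq_bot_iff_forall _).2 fun b hb => hRV b hb.1 hb.2
  have hmain : ∀ v ∈ V, ∃ w' ∈ V ⊓ Fx x, ∃ c ∈ V ⊓ Fx x, v = a⁻¹ * w' * c * a * w'⁻¹ := by
    intro v hv
    have hS := hbig v hv
    obtain ⟨n, hn, hconj⟩ := H20.exists_conj_eq_of_coprime (N := V) (H := R) (K := D x (a * v))
      ((Subgroup.normalizer_eq_top (H := V)).symm ▸ le_top) (hVcard V le_rfl) (Or.inl inferInstance)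
      (hsup.symm ▸ le_top) ((hcompl _ hS (hDsup v hv)).trans (hcompl R hRi hsup).symm)
    have hmem : ∀ s, s ∈ D x (a * v) ↔ n⁻¹ * s * n ∈ R := fun s => by
      rw [← hconj, Subgroup.mem_pointwise_smul_iff_inv_smul_mem]
      simp [MulAut.smul_def]
    have hu : n⁻¹ * x n = 1 := by
      refine hfree _ (mul_mem (inv_mem hn) (hV n hn)) fun b hb => ?_
      set b0 := (x ^ (p - 1)) b with hb0
      have hb0R : b0 ∈ R := hR.pow hb _
      have hxb : x b0 = b := by
        rw [hb0, ← MulAut.mul_apply, ← pow_succ', Nat.sub_add_cancel hp.out.one_le, hx]; rfl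
      have h1 : n * b0 * n⁻¹ ∈ D x (a * v) := (hmem _).2 (by
        rw [show n⁻¹ * (n * b0 * n⁻¹) * n = b0 by group]; exact hb0R)
      have h2 := (hmem _).1 (invar_D _ _ h1)
      rw [map_mul, map_mul, map_inv, hxb] at h2
      set u := n⁻¹ * x n with hu
      have huV : u ∈ V := mul_mem (inv_mem hn) (hV n hn)
      have h3 : u * b * u⁻¹ * b⁻¹ ∈ R := mul_mem (by
        have e : u * b * u⁻¹ = n⁻¹ * (x n * b * (x n)⁻¹) * n := by rw [hu]; group
        rw [e]; exact h2) (inv_mem hb)
      have h4 : u * b * u⁻¹ * b⁻¹ ∈ V := by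
        rw [show u * b * u⁻¹ * b⁻¹ = u * (b * u⁻¹ * b⁻¹) by group]
        exact mul_mem huV (hVn.conj_mem _ (inv_mem huV) b)
      have h5 := hRV _ h3 h4
      calc b * u = (u * b * u⁻¹ * b⁻¹) * b * u := by rw [h5, one_mul]
        _ = u * b := by group
    have hnF : x n = n := (inv_mul_eq_one.1 hu).symm
    set g := n⁻¹ * (a * v) * n with hg
    have hgE : g⁻¹ * x g ∈ R := by
      have e : g⁻¹ * x g = n⁻¹ * ((a * v)⁻¹ * x (a * v)) * n := by
        rw [hg, map_mul x (n⁻¹ * (a * v)) n, map_mul x n⁻¹ (a * v), map_inv, hnF]; group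
      rw [e]
      exact (hmem _).1 (E_mem_D _)
    obtain ⟨k, hk, hfix⟩ := exists_fixed_mul hx hcop hR hgE
    set v1 := a⁻¹ * g with hv1
    have hv1V : v1 ∈ V := by
      rw [hv1, hg, show a⁻¹ * (n⁻¹ * (a * v) * n) = (a⁻¹ * n⁻¹ * a⁻¹⁻¹) * v * n by group]
      exact mul_mem (mul_mem (hVn.conj_mem _ (inv_mem hn) _) hv) hn
    set v2 := k⁻¹ * v1 * k with hv2
    have hv2V : v2 ∈ V := by simpa using hVn.conj_mem _ hv1V k⁻¹
    have hak : a * k = 1 := by
      refine hR0 _ (mul_mem ha hk) ?_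
      have e : g * k = (a * k) * v2 := by rw [hv2, hv1]; group
      rw [e, map_mul] at hfix
      have h1 : (a * k)⁻¹ * x (a * k) ∈ R :=
        mul_mem (inv_mem (mul_mem ha hk)) (hR _ (mul_mem ha hk))
      have h2 : (a * k)⁻¹ * x (a * k) ∈ V := by
        have e2 : (a * k)⁻¹ * x (a * k) = v2 * (x v2)⁻¹ := by
          calc (a * k)⁻¹ * x (a * k) = (a * k)⁻¹ * (x (a * k) * x v2) * (x v2)⁻¹ := by group
            _ = v2 * (x v2)⁻¹ := by rw [hfix]; group
        rw [e2]
        exact mul_mem hv2V (inv_mem (hV _ hv2V))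
      exact (inv_mul_eq_one.1 (hRV _ h1 h2)).symm
    have hka : k = a⁻¹ := (inv_eq_of_mul_eq_one_right hak).symm
    refine ⟨n, ⟨hn, hnF⟩, g * k, ⟨?_, hfix⟩, ?_⟩
    · rw [hka, show g * a⁻¹ = a * v1 * a⁻¹ by rw [hv1]; group]
      exact hVn.conj_mem _ hv1V a
    · rw [hka, hg]; group
  let σ0 : V →* V := ((x : H →* H).comp V.subtype).codRestrict V fun v => hV _ v.2
  have hσ0 : Function.Injective σ0 := fun u v e =>
    Subtype.ext (x.injective (congrArg Subtype.val e))
  let σ : MulAut V := MulEquiv.ofBijective σ0 (Finite.injective_iff_bijective.1 hσ0)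
  have hσ : ∀ v : V, ((σ v : V) : H) = x v := fun _ => rfl
  have hσp : σ ^ p = 1 := by
    refine MulEquiv.ext fun v => Subtype.ext ?_
    have key : ∀ i, (((σ ^ i) v : V) : H) = (x ^ i) v := fun i => by
      induction i with
      | zero => rfl
      | succ i ih => rw [pow_succ', pow_succ', MulAut.mul_apply, MulAut.mul_apply, hσ, ih]
    rw [key, hx]; rfl
  have hconj : ∀ h, σ * act h * σ⁻¹ = act (x h) := fun h => by
    refine MulEquiv.ext fun v => Subtype.ext ?_
    obtain ⟨u, rfl⟩ := σ.surjective v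
    rw [MulAut.mul_apply, MulAut.mul_apply, MulAut.inv_apply_self, hσ, hact, hact, hσ, map_mul,
      map_mul, map_inv]
  set A := R.map act with hA
  have hAinj : Nat.card A = Nat.card R := by
    refine (Nat.card_congr (Equiv.ofBijective (act.subgroupMap R)
      ⟨fun s t e => ?_, act.subgroupMap_surjective R⟩)).symm
    exact Subtype.ext (hinjR _ s.2 _ t.2 (congrArg Subtype.val e))
  have hAσ : A.map (MulAut.conj σ).toMonoidHom = A := by
    refine Subgroup.eq_of_le_of_card_ge ?_
      (Subgroup.card_map_of_injective (f := (MulAut.conj σ).toMonoidHom) (K := A)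
        (MulAut.conj σ).injective).ge
    rintro _ ⟨_, ⟨b, hb, rfl⟩, rfl⟩
    exact ⟨x b, hR b hb, (hconj b).symm⟩
  have hcube := fixed_cube_le (V := V) hp2 σ hσp A
    (fun e => ha1 (hinjR a ha 1 (one_mem R) (by
      rw [map_one, ← Subgroup.mem_bot (G := MulAut V), ← e]; exact ⟨a, ha, rfl⟩)))
    (by rw [hAinj]; exact hVcard V le_rfl)
    (by rintro _ ⟨b, hb, rfl⟩ _ ⟨c, hc, rfl⟩; rw [← map_mul, hRcomm b hb c hc, map_mul])
    hAσ
    (by
      rintro _ ⟨b, hb, rfl⟩ e
      have h1 : act (x b) = act b := by rw [← hconj, e, mul_inv_cancel_right]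
      rw [hR0 b hb (hinjR _ (hR b hb) _ hb h1), map_one])
    (fun B hBA hBσ => by
      have hBi : Invar x (R ⊓ B.comap act) := fun b hb => ⟨hR b hb.1, by
        show act (x b) ∈ B
        rw [← hconj, ← hBσ]
        exact ⟨act b, hb.2, rfl⟩⟩
      have hBmap : B = (R ⊓ B.comap act).map act := by
        refine le_antisymm (fun c hc => ?_) (by rintro _ ⟨b, hb, rfl⟩; exact hb.2)
        obtain ⟨b, hb, rfl⟩ := hBA hc
        exact ⟨b, ⟨hb, hc⟩, rfl⟩
      rcases hirr _ inf_le_left hBi with h | h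
      · exact Or.inl (by rw [hBmap, h, Subgroup.map_bot])
      · exact Or.inr (by rw [hBmap, h]))
    (fun v hv => Subtype.ext (hfree v v.2 fun b hb => by
      have h1 := congrArg Subtype.val (hv (act b) ⟨b, hb, rfl⟩)
      rw [hact] at h1
      exact mul_inv_eq_iff_eq_mul.1 h1))
    (fun U hUA hUσ => by
      haveI : (U.map V.subtype).Normal := by
        refine normal_of_sup hsup (fun v hv => ?_) fun b hb => ?_
        · refine Subgroup.centralizer_le_normalizer _
            (Subgroup.mem_centralizer_iff.2 ?_)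
          rintro _ ⟨u, -, rfl⟩
          exact congrArg Subtype.val (mul_comm u ⟨v, hv⟩)
        · have key : ∀ c ∈ R, ∀ s ∈ U.map V.subtype, c * s * c⁻¹ ∈ U.map V.subtype := by
            rintro c hc _ ⟨u, hu, rfl⟩
            exact ⟨act c u, hUA _ ⟨c, hc, rfl⟩ u hu, hact c u⟩
          rw [Subgroup.mem_normalizer_iff]
          refine fun s => ⟨key b hb s, fun hs => ?_⟩
          have := key b⁻¹ (inv_mem hb) _ hs
          simpa [mul_assoc] using this
      rcases hmin (U.map V.subtype) inferInstance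
        (by rintro _ ⟨u, hu, rfl⟩; exact ⟨σ u, hUσ u hu, rfl⟩)
        (Subgroup.map_subtype_le U) with h | h
      · exact Or.inl ((Subgroup.map_eq_bot_iff_of_injective U V.subtype_injective).1 h)
      · exact Or.inr (Subgroup.map_injective V.subtype_injective
          (h.trans (by rw [← MonoidHom.range_eq_map, Subgroup.range_subtype]))))
    (by
      rw [Subgroup.nontrivial_iff_ne_bot]
      exact fun e => hnc (top_unique fun g _ => by
        rw [hKv, e, Subgroup.mem_centralizer_iff]; intro v hv; rw [Subgroup.mem_bot.1 hv]; simp))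
  have hle : Nat.card V ≤ Nat.card {v : V // σ v = v} * Nat.card {v : V // σ v = v} := by
    rw [← Nat.card_prod]
    refine Nat.card_le_card_of_surjective
      (fun wc => (⟨a⁻¹ * (wc.1.1 : H) * (wc.2.1 : H) * a * (wc.1.1 : H)⁻¹, by
        refine mul_mem ?_ (inv_mem wc.1.1.2)
        rw [show a⁻¹ * (wc.1.1 : H) * (wc.2.1 : H) * a =
          a⁻¹ * ((wc.1.1 : H) * (wc.2.1 : H)) * a⁻¹⁻¹ by group]
        exact hVn.conj_mem _ (mul_mem wc.1.1.2 wc.2.1.2) _⟩ : V)) fun v => ?_
    obtain ⟨n, hn, c, hc, e⟩ := hmain v v.2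
    exact ⟨(⟨⟨n, hn.1⟩, Subtype.ext hn.2⟩, ⟨⟨c, hc.1⟩, Subtype.ext hc.2⟩), Subtype.ext e.symm⟩
  set N := Nat.card {v : V // σ v = v} with hN
  have hN1 : N ≤ 1 := by
    by_contra hlt
    push Not at hlt
    have h1 : N * N * 2 ≤ N * N * N := Nat.mul_le_mul_left _ hlt
    have h2 : N * N * N ≤ N * N := by
      calc N * N * N = N ^ 3 := by ring
        _ ≤ Nat.card V := hcube
        _ ≤ N * N := hle
    have h3 : 0 < N * N := Nat.mul_pos (by omega) (by omega)
    omega
  haveI : Subsingleton {v : V // σ v = v} :=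
    Finite.card_le_one_iff_subsingleton.1 hN1
  have hw1 : w = 1 := by
    have := Subsingleton.elim (α := {v : V // σ v = v}) ⟨⟨w, hw.1⟩, Subtype.ext hw.2⟩ ⟨1, map_one σ⟩
    exact congrArg (fun s => ((s.1 : V) : H)) this
  have hV1 : V = ⊥ := (Subgroup.eq_bot_iff_forall V).2 fun v hv => by
    have hle1 : Nat.card V ≤ 1 := hle.trans (by nlinarith)
    haveI := Finite.card_le_one_iff_subsingleton.1 hle1
    exact congrArg Subtype.val (Subsingleton.elim (⟨v, hv⟩ : V) 1)
  refine hnc (top_unique fun g _ => ?_)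
  rw [hKv, hV1, Subgroup.mem_centralizer_iff]
  intro v hv; rw [Subgroup.mem_bot.1 hv]; simp

end Cfsg.Agent.H84.DispFix
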