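import Cfsg.Agent.H84.DispFix.PGroup
import Cfsg.Agent.H84.DispFix.Top

/-! The fixed points in `[H, ⟨x⟩]` are generated by the fixed points in the `[h, ⟨x⟩]`. -/

set_option autoImplicit false

open scoped Pointwise IsMulCommutative

universe u

namespace Cfsg.Agent.H84.DispFix

variable {H : Type u} [Group H] {x : MulAut H}

/-- The image in any group of a perfect subgroup of a solvable group is trivial. -/
theorem map_eq_bot_of_le_commutator [Group.IsSolvable H] {G : Type*} [Group G] (f : H →* G)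
    (M : Subgroup H) (h : M.map f ≤ ⁅M.map f, M.map f⁆) : M.map f = ⊥ := by
  obtain ⟨n, hn⟩ := (inferInstance : Group.IsSolvable H).solvable
  have key : ∀ m, M.map f ≤ (derivedSeries H m).map f := by
    intro m
    induction m with
    | zero => exact Subgroup.map_mono le_top
    | succ m ih =>
      rw [derivedSeries_succ, Subgroup.map_commutator]
      exact h.trans (Subgroup.commutator_mono ih ih)
  rw [eq_bot_iff]
  exact (key n).trans (by rw [hn, Subgroup.map_bot])

theorem normal_le_sylow [Finite H] {r : ℕ} [Fact r.Prime] {N : Subgroup H} [hN : N.Normal]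
    (hr : IsPGroup r N) (P : Sylow r H) : N ≤ (P : Subgroup H) := by
  have hs := hr.to_sup_of_normal_left P.isPGroup'
  exact le_sup_left.trans (P.is_maximal' hs le_sup_right).le

variable [Finite H] {p : ℕ} [hp : Fact p.Prime]

theorem exists_invar_sylow (hx : x ^ p = 1) (hcop : (Nat.card H).Coprime p) (q : ℕ)
    [hq : Fact q.Prime] : ∃ P : Sylow q H, Invar x (P : Subgroup H) := by
  classical
  haveI := Fintype.ofFinite (Sylow q H)
  let σ : Equiv.Perm (Sylow q H) := MulAction.toPermHom (MulAut H) (Sylow q H) x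
  have hσ : σ ^ p ^ 1 = 1 := by
    rw [pow_one, show σ = MulAction.toPermHom (MulAut H) (Sylow q H) x from rfl, ← map_pow, hx,
      map_one]
  obtain ⟨Q⟩ : Nonempty (Sylow q H) := inferInstance
  obtain ⟨P, hP⟩ := Equiv.Perm.exists_fixed_point_of_prime (p := p) (σ := σ) (fun hd => by
    rw [← Nat.card_eq_fintype_card] at hd
    exact hp.out.not_dvd_one ((hcop.symm.coprime_dvd_right ((Q : Subgroup H).index_dvd_card))
      |>.dvd_of_dvd_mul_left (by simpa using hd.trans Q.card_dvd_index))) hσ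
  refine ⟨P, fun k hk => ?_⟩
  have h1 : x • k ∈ x • (P : Subgroup H) := Subgroup.smul_mem_pointwise_smul k x _ hk
  have h2 : x • (P : Subgroup H) = (P : Subgroup H) := congrArg Sylow.toSubgroup hP
  rw [h2] at h1
  exact h1

theorem invar_centralizer (hx : x ^ p = 1) {V : Subgroup H} (hV : Invar x V) :
    Invar x (Subgroup.centralizer (V : Set H)) := fun k hk => by
  rw [Subgroup.mem_centralizer_iff] at hk ⊢
  intro v hv
  have h1 : (x ^ (p - 1)) v ∈ V := hV.pow hv _
  have h2 : x ((x ^ (p - 1)) v) = v := by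
    rw [← MulAut.mul_apply, ← pow_succ', Nat.sub_add_cancel hp.out.one_le, hx]; rfl
  have h3 := congrArg x (hk _ h1)
  rwa [map_mul, map_mul, h2] at h3

/-- The fixed points of a fixed minimal invariant normal subgroup. -/
theorem le_C0_of_fixed [Group.IsSolvable H] (hB : Below.{u} p (Nat.card H)) (hx : x ^ p = 1)
    (hcop : (Nat.card H).Coprime p) (htop : DispIn x (⊤ : Subgroup H) = ⊤) (V : Subgroup H)
    [hVn : V.Normal] (hne : V ≠ ⊥) (hVF : V ≤ Fx x) {q : ℕ} [hq : Fact q.Prime]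
    (hVq : ∀ v ∈ V, v ^ q = 1) (hH : ¬ IsPGroup q H) : V ≤ C0 x := by
  have hVi : Invar x V := fun k hk => (mem_Fx.1 (hVF hk)).symm ▸ hk
  have hVc : V ≤ Subgroup.center H := by
    intro v hv
    rw [Subgroup.mem_center_iff]
    intro g
    have hle : DispIn x (⊤ : Subgroup H) ≤ Subgroup.centralizer {v} := by
      refine DispIn_le_closure.trans ((Subgroup.closure_le _).2 ?_)
      rintro _ ⟨h, rfl⟩
      refine Subgroup.mem_centralizer_singleton_iff.2 ?_
      have h1 : h * v * h⁻¹ ∈ V := hVn.conj_mem v hv h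
      have h2 := mem_Fx.1 (hVF h1)
      rw [map_mul, map_mul, map_inv, mem_Fx.1 (hVF hv)] at h2
      calc h⁻¹ * x h * v = h⁻¹ * (x h * v * (x h)⁻¹) * x h := by group
        _ = h⁻¹ * (h * v * h⁻¹) * x h := by rw [h2]
        _ = v * (h⁻¹ * x h) := by group
    exact Subgroup.mem_centralizer_singleton_iff.1 (hle (htop.symm ▸ Subgroup.mem_top g))
  obtain ⟨Q, hQ⟩ := exists_invar_sylow hx hcop q
  have hVQ : V ≤ (Q : Subgroup H) :=
    normal_le_sylow (fun v => ⟨1, Subtype.ext (by simpa using hVq v.1 v.2)⟩) Q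
  have hQne : (Q : Subgroup H) ≠ ⊤ := fun e => hH fun g => by
    obtain ⟨n, hn⟩ := Q.isPGroup' ⟨g, e ▸ Subgroup.mem_top g⟩
    exact ⟨n, congrArg Subtype.val hn⟩
  intro v hv
  refine mem_C0_of_central hB hx hcop hVc hVF ?_ hQ hQne hVQ hv ?_
  · exact (Fx_le_C0_sup hB hx hcop htop V hVi hne).trans (sup_le_sup_left inf_le_left _)
  have hker := Abelianization.commutator_subset_ker
    (MonoidHom.transfer (Abelianization.of : (Q : Subgroup H) →* Abelianization (Q : Subgroup H)))
  have hvc : v ∈ commutator H := Fx_le_commutator hx hcop htop (hVF hv)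
  have h1 := MonoidHom.transfer_eq_pow
    (Abelianization.of : (Q : Subgroup H) →* Abelianization (Q : Subgroup H)) v
    (fun k g₀ _ => by
      have := Subgroup.mem_center_iff.1 (pow_mem (hVc hv) k) g₀
      rw [mul_assoc, ← this, inv_mul_cancel_left])
  rw [MonoidHom.mem_ker.1 (hker hvc), eq_comm, ← MonoidHom.mem_ker,
    Abelianization.ker_of] at h1
  have h2 : v ^ (Q : Subgroup H).index ∈ ⁅(Q : Subgroup H), (Q : Subgroup H)⁆ := by
    have hm : (commutator (Q : Subgroup H)).map (Q : Subgroup H).subtype =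
        ⁅(Q : Subgroup H), (Q : Subgroup H)⁆ := by
      rw [commutator_def, Subgroup.map_commutator, ← MonoidHom.range_eq_map,
        Subgroup.range_subtype]
    rw [← hm]
    exact ⟨_, h1, rfl⟩
  have hnd : ¬ q ∣ (Q : Subgroup H).index := Q.not_dvd_index
  obtain ⟨m, hm⟩ := exists_pow_eq_self_of_coprime
    ((hq.out.coprime_iff_not_dvd.2 hnd).symm.coprime_dvd_right
      (orderOf_dvd_of_pow_eq_one (hVq v hv)))
  rw [← hm]
  exact pow_mem h2 m

/-- An invariant `r`-group inducing the bottom chief factor above the centraliser of `V`. -/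
theorem exists_chief [Group.IsSolvable H] (hx : x ^ p = 1) (hcop : (Nat.card H).Coprime p)
    (V : Subgroup H) [hVn : V.Normal] [IsMulCommutative V] (hV : Invar x V) (hne : V ≠ ⊥) {q : ℕ}
    [hq : Fact q.Prime]
    (hVq : ∀ v ∈ V, v ^ q = 1)
    (hmin : ∀ U : Subgroup H, U.Normal → Invar x U → U ≤ V → U = ⊥ ∨ U = V)
    (hnc : Subgroup.centralizer (V : Set H) ≠ ⊤) :
    ∃ (r : ℕ) (R : Subgroup H), r.Prime ∧ r ≠ q ∧ IsPGroup r R ∧ Invar x R ∧
      (∀ a ∈ R, ∀ b ∈ R, a * b * a⁻¹ * b⁻¹ ∈ Subgroup.centralizer (V : Set H)) ∧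
      (∀ v ∈ V, (∀ a ∈ R, a * v = v * a) → v = 1) ∧
      (V ⊔ R = ⊤ → ∀ N : Subgroup H, N.Normal → Invar x N →
        Subgroup.centralizer (V : Set H) ≤ N →
        N = Subgroup.centralizer (V : Set H) ∨ N = ⊤) := by
  classical
  set Kv := Subgroup.centralizer (V : Set H) with hKv
  have hKi : Invar x Kv := invar_centralizer hx hV
  obtain ⟨M, ⟨hMn, hMi, hMlt⟩, hMmin⟩ := Set.Finite.exists_minimal
    (Set.toFinite {M : Subgroup H | M.Normal ∧ Invar x M ∧ Kv < M})
    ⟨⊤, inferInstance, invar_top, lt_top_iff_ne_top.2 hnc⟩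
  have hM : ∀ N : Subgroup H, N.Normal → Invar x N → Kv ≤ N → N ≤ M → N = Kv ∨ N = M :=
    fun N h1 h2 h3 h4 => (eq_or_lt_of_le h3).imp Eq.symm fun hlt =>
      le_antisymm h4 (hMmin ⟨h1, h2, hlt⟩ h4)
  let act : H →* MulAut V := MulAut.conjNormal (H := V)
  have hact : ∀ h (v : V), ((act h v : V) : H) = h * v * h⁻¹ := fun h v =>
    MulAut.conjNormal_apply h v
  have hker : ∀ h, h ∈ Kv ↔ act h = 1 := fun h => by
    rw [hKv, Subgroup.mem_centralizer_iff]
    constructor
    · intro hh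
      refine MulEquiv.ext fun v => Subtype.ext ?_
      rw [hact, ← hh v v.2, mul_inv_cancel_right]; rfl
    · intro e v hv
      have := hact h ⟨v, hv⟩
      rw [e] at this
      calc v * h = (h * v * h⁻¹) * h := by rw [← this]; rfl
        _ = h * v := by group
  have hab : ∀ a ∈ M, ∀ b ∈ M, a * b * a⁻¹ * b⁻¹ ∈ Kv := by
    rcases hM (Kv ⊔ ⁅M, M⁆) inferInstance (invar_sup hKi (invar_commutator hMi hMi)) le_sup_left
      (sup_le hMlt.le (Subgroup.commutator_le_self M)) with h | h
    · exact fun a ha b hb => h ▸ Subgroup.mem_sup_right (Subgroup.commutator_mem_commutator ha hb)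
    · exfalso
      have hbot : M.map act = ⊥ := map_eq_bot_of_le_commutator act M (by
        rw [← Subgroup.map_commutator]
        rintro _ ⟨c, hc, rfl⟩
        obtain ⟨k, hk, d, hd, rfl⟩ := Subgroup.mem_sup_of_normal_left.1
          (h.symm ▸ hc : c ∈ Kv ⊔ ⁅M, M⁆)
        exact ⟨d, hd, by rw [map_mul, (hker k).1 hk, one_mul]⟩)
      exact absurd hMlt fun hlt => hlt.not_ge fun c hc => (hker c).2
        ((Subgroup.mem_bot (G := MulAut V)).1 (hbot ▸ ⟨c, hc, rfl⟩))
  -- an element of prime order in the factor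
  obtain ⟨m0, hm0M, hm0K⟩ := SetLike.exists_of_lt hMlt
  obtain ⟨r, hr, hrd⟩ := Nat.exists_prime_and_dvd (n := orderOf (act m0))
    (fun h => hm0K ((hker m0).2 (orderOf_eq_one_iff.1 h)))
  haveI : Fact r.Prime := ⟨hr⟩
  obtain ⟨l, hl⟩ := hrd
  haveI : Finite (MulAut V) := Finite.of_injective (fun f => (⇑f : V → V)) DFunLike.coe_injective
  have hl0 : l ≠ 0 := fun e => by
    rw [e, mul_zero, orderOf_eq_zero_iff] at hl
    exact hl (isOfFinOrder_of_finite _)
  have hcm : ∀ a ∈ M, ∀ b ∈ M, Commute (act a) (act b) := fun a ha b hb => by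
    have h1 := (hker _).1 (hab a ha b hb)
    rw [map_mul, map_mul, map_mul, map_inv, map_inv] at h1
    exact mul_inv_eq_iff_eq_mul.1 (mul_inv_eq_one.1 h1)
  let Mr : Subgroup H :=
    { carrier := {m | m ∈ M ∧ act m ^ r = 1}
      one_mem' := ⟨one_mem M, by rw [map_one, one_pow]⟩
      mul_mem' := fun {a b} ha hb => ⟨mul_mem ha.1 hb.1, by
        rw [map_mul, (hcm a ha.1 b hb.1).mul_pow, ha.2, hb.2, one_mul]⟩
      inv_mem' := fun {a} ha => ⟨inv_mem ha.1, by rw [map_inv, inv_pow, ha.2, inv_one]⟩ }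
  have hσact : ∀ h (v : V), ((act (x h) ⟨x v, hV _ v.2⟩ : V) : H) = x ((act h v : V) : H) :=
    fun h v => by rw [hact, hact, map_mul, map_mul, map_inv]
  haveI : Mr.Normal := ⟨fun m hm g => ⟨hMn.conj_mem m hm.1 g, by
    rw [map_mul, map_mul, map_inv, conj_pow, hm.2, mul_one, mul_inv_cancel]⟩⟩
  have hMri : Invar x Mr := fun m hm => ⟨hMi m hm.1, by
    rw [← map_pow, ← map_pow, ← hker]
    exact hKi _ ((hker _).2 (by rw [map_pow]; exact hm.2))⟩
  have hMr : Mr = M := by
    refine (hM Mr inferInstance hMri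
      (fun k hk => ⟨hMlt.le hk, by rw [(hker k).1 hk, one_pow]⟩) fun m hm => hm.1).resolve_left ?_
    intro e
    have h1 : m0 ^ l ∈ Mr := ⟨pow_mem hm0M l, by
      rw [map_pow, ← pow_mul, mul_comm, ← hl, pow_orderOf_eq_one]⟩
    rw [e, hker, map_pow] at h1
    have h2 : orderOf (act m0) ∣ l := orderOf_dvd_of_pow_eq_one h1
    rw [hl] at h2
    have h3 := Nat.le_of_dvd (Nat.pos_of_ne_zero hl0) h2
    have h4 : 2 * l ≤ r * l := Nat.mul_le_mul_right l hr.two_le
    omega
  have hexp : ∀ m ∈ M, act m ^ r = 1 := fun m hm => (hMr.symm ▸ hm : m ∈ Mr).2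
  -- the fixed points of the factor on `V`
  have hfree : ∀ v ∈ V, (∀ a ∈ M, a * v = v * a) → v = 1 := by
    set F := V ⊓ Subgroup.centralizer (M : Set H) with hF
    rcases hmin F inferInstance (invar_inf hV (invar_centralizer hx hMi)) inf_le_left with h | h
    · intro v hv hva
      rw [← Subgroup.mem_bot (G := H), ← h]
      exact ⟨hv, Subgroup.mem_centralizer_iff.2 hva⟩
    · exfalso
      refine hMlt.not_ge fun c hc => ?_
      rw [hKv, Subgroup.mem_centralizer_iff]
      exact fun v hv => (Subgroup.mem_centralizer_iff.1 (h.symm ▸ hv : v ∈ F).2 c hc).symm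
  have hrq : r ≠ q := by
    rintro rfl
    set A := M.map act with hA
    have hAr : IsPGroup r A := fun a => ⟨1, by
      obtain ⟨m, hm, e⟩ := a.2
      refine Subtype.ext ?_
      rw [pow_one, Subgroup.coe_pow, ← e]
      exact hexp m hm⟩
    have hVr : IsPGroup r V := fun v => ⟨1, Subtype.ext (by simpa using hVq v.1 v.2)⟩
    haveI : Nontrivial V := (Subgroup.nontrivial_iff_ne_bot V).2 hne
    have hdvd : r ∣ Nat.card V := by
      rcases hVr.card_eq_or_dvd with h | h
      · exact absurd h (Finite.one_lt_card.ne')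
      · exact h
    letI : MulAction A V := MulAction.compHom V A.subtype
    obtain ⟨v, hv, hv1⟩ := hAr.exists_fixed_point_of_prime_dvd_card_of_fixed_point V hdvd
      (a := (1 : V)) fun a => map_one (a : MulAut V)
    refine hv1 (Subtype.ext (hfree v v.2 fun a ha => ?_).symm)
    have h1 := congrArg Subtype.val (hv ⟨act a, a, ha, rfl⟩)
    change ((act a v : V) : H) = v at h1
    rw [hact] at h1
    exact mul_inv_eq_iff_eq_mul.1 h1
  -- a Sylow subgroup inducing the whole factor
  obtain ⟨P, hP⟩ := exists_invar_sylow hx hcop r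
  refine ⟨r, (P : Subgroup H) ⊓ M, hr, hrq, P.isPGroup'.to_le inf_le_left, invar_inf hP hMi,
    fun a ha b hb => hab a ha.2 b hb.2, ?_, ?_⟩
  · intro v hv hva
    refine hfree v hv fun m hm => ?_
    set f := act.rangeRestrict with hf
    haveI : (M.map f).Normal := hMn.map f act.rangeRestrict_surjective
    have hN : IsPGroup r (M.map f) := fun a => ⟨1, by
      obtain ⟨m, hm, e⟩ := a.2
      refine Subtype.ext ?_
      rw [pow_one, Subgroup.coe_pow, ← e]
      exact Subtype.ext (by rw [Subgroup.coe_pow]; exact hexp m hm)⟩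
    have hle := normal_le_sylow hN (Sylow.mapSurjective act.rangeRestrict_surjective P)
    rw [Sylow.coe_mapSurjective] at hle
    obtain ⟨a, ha, hae⟩ := hle ⟨m, hm, rfl⟩
    have hae' : act a = act m := congrArg Subtype.val hae
    have haK : a⁻¹ * m ∈ Kv := (hker _).2 (by rw [map_mul, map_inv, hae', inv_mul_cancel])
    have haM : a ∈ M := by
      have : a = m * (a⁻¹ * m)⁻¹ := by group
      rw [this]
      exact mul_mem hm (inv_mem (hMlt.le haK))
    have h1 := hva a ⟨ha, haM⟩
    have h2 : v * (a⁻¹ * m) = (a⁻¹ * m) * v := Subgroup.mem_centralizer_iff.1 haK v hv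
    calc m * v = a * ((a⁻¹ * m) * v) := by group
      _ = a * v * (a⁻¹ * m) := by rw [← h2]; group
      _ = v * m := by rw [h1]; group
  · intro hsup N hN1 hN2 hN3
    have hMtop : M = ⊤ := top_unique (hsup ▸ sup_le
      ((Subgroup.le_centralizer V).trans hMlt.le) inf_le_right)
    rcases hM N hN1 hN2 hN3 (hMtop.symm ▸ le_top) with h | h
    · exact Or.inl h
    · exact Or.inr (h.trans hMtop)

/-- The norm over the fixed part and over the moved part of `R`. -/
theorem le_C0_of_chief [Group.IsSolvable H] (hB : Below.{u} p (Nat.card H)) (hx : x ^ p = 1)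
    (hcop : (Nat.card H).Coprime p) (htop : DispIn x (⊤ : Subgroup H) = ⊤) (V : Subgroup H)
    [hVn : V.Normal] [IsMulCommutative V] (hV : Invar x V) (hne : V ≠ ⊥) {q r : ℕ}
    [hq : Fact q.Prime] [hr : Fact r.Prime] (hrq : r ≠ q) (hVq : ∀ v ∈ V, v ^ q = 1)
    (R : Subgroup H) (hR : Invar x R) (hRr : IsPGroup r R)
    (hab : ∀ a ∈ R, ∀ b ∈ R, a * b * a⁻¹ * b⁻¹ ∈ Subgroup.centralizer (V : Set H))
    (hfree : ∀ v ∈ V, (∀ a ∈ R, a * v = v * a) → v = 1) (hK : V ⊔ R ≠ ⊤) :
    V ⊓ Fx x ≤ C0 x := by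
  classical
  intro w hw
  set wV : V := ⟨w, hw.1⟩ with hwV
  let act : H →* MulAut V := MulAut.conjNormal (H := V)
  have hact : ∀ h (v : V), ((act h v : V) : H) = h * v * h⁻¹ := fun h v =>
    MulAut.conjNormal_apply h v
  haveI : Finite (MulAut V) := Finite.of_injective (fun f => (⇑f : V → V)) DFunLike.coe_injective
  have hRn : DispIn x R ≤ R := DispIn_le_self hR
  set B1 := (R ⊓ Fx x).map act with hB1
  set B2 := (DispIn x R).map act with hB2
  have hcomm : ∀ a ∈ R, ∀ b ∈ R, act a * act b = act b * act a := by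
    intro a ha b hb
    have h1 : act (a * b * a⁻¹ * b⁻¹) = 1 := by
      refine MulEquiv.ext fun v => Subtype.ext ?_
      rw [hact, ← Subgroup.mem_centralizer_iff.1 (hab a ha b hb) v v.2, mul_inv_cancel_right]
      rfl
    rw [map_mul, map_mul, map_mul, map_inv, map_inv] at h1
    exact mul_inv_eq_iff_eq_mul.1 (mul_inv_eq_one.1 h1)
  haveI := Fintype.ofFinite B1
  haveI := Fintype.ofFinite B2
  set CV := (C0 x).subgroupOf V with hCV
  set w' := autNorm B1 wV with hw'
  -- `w'` agrees with a power of `w` modulo the generated subgroup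
  have hb1 : ∀ b : B1, (b : MulAut V) wV * wV⁻¹ ∈ CV := by
    rintro ⟨_, a, ha, rfl⟩
    show ((act a wV * wV⁻¹ : V) : H) ∈ C0 x
    rw [Subgroup.coe_mul, Subgroup.coe_inv, hact]
    obtain ⟨c0, hc0, v', hv', rfl⟩ := Subgroup.mem_sup_of_normal_right.1
      (Fx_le_C0_sup hB hx hcop htop V hV hne ha.2 |>
        sup_le_sup_left (inf_le_left : V ⊓ Fx x ≤ V) (C0 x))
    have e : c0 * v' * w * (c0 * v')⁻¹ * w⁻¹ = c0 * (w * c0⁻¹ * w⁻¹) := by
      have h1 : v' * w = w * v' := congrArg Subtype.val (mul_comm (⟨v', hv'⟩ : V) ⟨w, hw.1⟩)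
      calc c0 * v' * w * (c0 * v')⁻¹ * w⁻¹ = c0 * (v' * w) * v'⁻¹ * c0⁻¹ * w⁻¹ := by group
        _ = c0 * (w * c0⁻¹ * w⁻¹) := by rw [h1]; group
    rw [e]
    exact mul_mem hc0 (conj_mem_C0 hw.2 (inv_mem hc0))
  have hw1 : w' * (wV ^ Nat.card B1)⁻¹ ∈ CV := by
    have : w' * (wV ^ Nat.card B1)⁻¹ = ∏ b : B1, (b : MulAut V) wV * wV⁻¹ := by
      rw [Finset.prod_mul_distrib, Finset.prod_const, Finset.card_univ, ← inv_pow, hw',
        autNorm_apply, Nat.card_eq_fintype_card]
    rw [this]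
    exact prod_mem fun b _ => hb1 b
  -- `w'` is fixed
  have hwfix : x (w' : H) = w' := by
    have h1 : ∀ b : B1, x (((b : MulAut V) wV : V) : H) = (((b : MulAut V) wV : V) : H) := by
      rintro ⟨_, a, ha, rfl⟩
      show x ((act a wV : V) : H) = (act a wV : V)
      rw [hact, map_mul, map_mul, map_inv, mem_Fx.1 ha.2, mem_Fx.1 hw.2]
    have h2 : w' ∈ (Fx x).subgroupOf V := by
      rw [hw', autNorm_apply]
      exact prod_mem fun b _ => h1 b
    exact h2
  -- the norm over the moved part kills `w'`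
  set Kd := DispIn x (V ⊔ R) with hKd
  have hu : autNorm B2 w' = 1 := by
    refine Subtype.ext (hfree _ (autNorm B2 w').2 fun a ha => ?_)
    have hfix : act a (autNorm B2 w') = autNorm B2 w' := by
      obtain ⟨c, hc, d, hd, rfl⟩ := exists_fix_mul hx hcop hR ha
      rw [map_mul, MulAut.mul_apply, autNorm_fixed B2 ⟨d, hd, rfl⟩,
        autNorm_commute B2 (a := act c) ?_, hw', autNorm_fixed B1 ⟨c, hc, rfl⟩]
      rintro _ ⟨b, hb, rfl⟩
      exact hcomm c hc.1 b (hRn hb)
    have h1 := congrArg Subtype.val hfix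
    rw [hact] at h1
    exact mul_inv_eq_iff_eq_mul.1 h1
  have hpow : w' ^ Nat.card B2 ∈ CV := by
    have hin : ∀ b : B2, ((w' * ((b : MulAut V) w')⁻¹ : V) : H) ∈ Kd := by
      rintro ⟨_, a, ha, rfl⟩
      rw [Subgroup.coe_mul, Subgroup.coe_inv, hact]
      have haK : a ∈ Kd := DispIn_mono le_sup_right ha
      have hwn := le_normalizer_DispIn (x := x) (V ⊔ R) (Subgroup.mem_sup_left (w'.2))
      have e : (w' : H) * (a * w' * a⁻¹)⁻¹ = (w' : H) * a * (w' : H)⁻¹ * a⁻¹ := by group
      rw [e]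
      exact mul_mem ((Subgroup.mem_normalizer_iff.1 hwn a).1 haK) (inv_mem haK)
    have he : w' ^ Nat.card B2 = ∏ b : B2, w' * ((b : MulAut V) w')⁻¹ := by
      rw [Finset.prod_mul_distrib, Finset.prod_const, Finset.card_univ, Finset.prod_inv_distrib,
        ← autNorm_apply, hu, inv_one, mul_one, Nat.card_eq_fintype_card]
    have hmem : w' ^ Nat.card B2 ∈ Kd.subgroupOf V := by
      rw [he]; exact prod_mem fun b _ => hin b
    refine DispIn_inf_Fx_le hB hx hcop (invar_sup hV hR) hK ⟨hmem, ?_⟩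
    show x ((w' ^ Nat.card B2 : V) : H) = _
    rw [Subgroup.coe_pow, map_pow, hwfix]
    rfl
  have hfinal : (wV ^ Nat.card B1) ^ Nat.card B2 ∈ CV := by
    have h := mul_mem (inv_mem (pow_mem hw1 (Nat.card B2))) hpow
    rwa [mul_pow, mul_inv_rev, inv_pow, inv_inv, mul_assoc, inv_mul_cancel, mul_one] at h
  have hc : ∀ S : Subgroup H, S ≤ R → (Nat.card (S.map act)).Coprime q := fun S hS => by
    obtain ⟨n, hn⟩ := (hRr.to_le hS).exists_card_eq
    exact ((Nat.coprime_primes hr.out hq.out).2 hrq).pow_left n |>.coprime_dvd_left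
      ((Subgroup.card_map_dvd (H := S) act).trans hn.dvd)
  refine le_C0_of_pow (N := Nat.card B1 * Nat.card B2) (hVq w hw.1)
    (Nat.Coprime.mul_left (hc _ inf_le_left) (hc _ hRn)) ?_
  rw [pow_mul]
  simpa [hCV, Subgroup.mem_subgroupOf] using hfinal

/-- The statement when the displacements generate the group. -/
theorem Fx_le_C0 [Group.IsSolvable H] (hB : Below.{u} p (Nat.card H)) (hp2 : p ≠ 2)
    (hx : x ^ p = 1) (hcop : (Nat.card H).Coprime p) (htop : DispIn x (⊤ : Subgroup H) = ⊤) :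
    Fx x ≤ C0 x := by
  classical
  rcases subsingleton_or_nontrivial H with hs | hnt
  · intro c _; rw [Subsingleton.elim c 1]; exact one_mem _
  obtain ⟨V, ⟨hVn, hV, hne⟩, hVmin⟩ := Set.Finite.exists_minimal
    (Set.toFinite {V : Subgroup H | V.Normal ∧ Invar x V ∧ V ≠ ⊥})
    ⟨⊤, inferInstance, invar_top, top_ne_bot⟩
  have hmin : ∀ U : Subgroup H, U.Normal → Invar x U → U ≤ V → U = ⊥ ∨ U = V :=
    fun U h1 h2 h3 => (em (U = ⊥)).imp id fun h => le_antisymm h3 (hVmin ⟨h1, h2, h⟩ h3)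
  have hc0 : ⁅V, V⁆ = ⊥ := (hmin _ inferInstance (invar_commutator hV hV)
    (Subgroup.commutator_le_self V)).resolve_right fun h => hne (by
      simpa using map_eq_bot_of_le_commutator (MonoidHom.id H) V (by simp [h]))
  have hVc : ∀ a ∈ V, ∀ b ∈ V, a * b = b * a := fun a ha b hb =>
    commutatorElement_eq_one_iff_mul_comm.1 (by
      rw [← Subgroup.mem_bot (G := H), ← hc0]; exact Subgroup.commutator_mem_commutator ha hb)
  haveI : IsMulCommutative V := ⟨⟨fun a b => Subtype.ext (hVc a a.2 b b.2)⟩⟩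
  obtain ⟨q, hq, hqd⟩ := Nat.exists_prime_and_dvd (n := Nat.card V)
    (fun h => hne (Subgroup.card_eq_one.1 h))
  haveI : Fact q.Prime := ⟨hq⟩
  let T : Subgroup H :=
    { carrier := {v | v ∈ V ∧ v ^ q = 1}
      one_mem' := ⟨one_mem V, one_pow q⟩
      mul_mem' := fun {a b} ha hb => ⟨mul_mem ha.1 hb.1, by
        rw [Commute.mul_pow (hVc a ha.1 b hb.1), ha.2, hb.2, one_mul]⟩
      inv_mem' := fun {a} ha => ⟨inv_mem ha.1, by rw [inv_pow, ha.2, inv_one]⟩ }
  haveI : T.Normal := ⟨fun v hv g => ⟨hVn.conj_mem v hv.1 g, by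
    rw [conj_pow, hv.2, mul_one, mul_inv_cancel]⟩⟩
  have hT : T = V := (hmin T inferInstance
    (fun v hv => ⟨hV v hv.1, by rw [← map_pow, hv.2, map_one]⟩) fun v hv => hv.1).resolve_left
    fun e => by
      obtain ⟨v, hv⟩ := exists_prime_orderOf_dvd_card' q hqd
      have h1 : (v : H) ∈ T := ⟨v.2, by
        rw [← Subgroup.coe_pow, ← hv, pow_orderOf_eq_one, Subgroup.coe_one]⟩
      rw [e, Subgroup.mem_bot] at h1
      have h2 : v = 1 := Subtype.ext h1
      rw [h2, orderOf_one] at hv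
      exact hq.ne_one hv.symm
  have hVq : ∀ v ∈ V, v ^ q = 1 := fun v hv => (hT.symm ▸ hv : v ∈ T).2
  by_cases hH : IsPGroup q H
  · exact Fx_le_C0_of_pGroup hB hp2 hx hcop htop hnt hH
  refine Fx_le_of_normal hB hx hcop htop V hV hne ?_
  by_cases hVF : V ≤ Fx x
  · exact inf_le_left.trans (le_C0_of_fixed hB hx hcop htop V hne hVF hVq hH)
  by_cases hCV : V ⊓ Fx x = ⊥
  · exact hCV.le.trans bot_le
  have hnc : Subgroup.centralizer (V : Set H) ≠ ⊤ := fun e => by
    haveI : (V ⊓ Fx x).Normal := ⟨fun n hn g => by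
      have := Subgroup.mem_centralizer_iff.1 (e.symm ▸ Subgroup.mem_top g :
        g ∈ Subgroup.centralizer (V : Set H)) n hn.1
      rw [← this, mul_inv_cancel_right]; exact hn⟩
    rcases hmin (V ⊓ Fx x) inferInstance (invar_inf hV invar_Fx) inf_le_left with h | h
    · exact hCV h
    · exact hVF (inf_eq_left.1 h)
  obtain ⟨r, R, hr, hrq, hRr, hR, hab, hfree, hchief⟩ :=
    exists_chief hx hcop V hV hne hVq hmin hnc
  haveI : Fact r.Prime := ⟨hr⟩
  by_cases hK : V ⊔ R = ⊤
  · exact inf_Fx_le_of_sup_eq_top hB hp2 hx hcop htop V R hV hR hrq hVq hRr hK hmin hfree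
      (hchief hK) hnc
  · exact le_C0_of_chief hB hx hcop htop V hV hne hrq hVq R hR hRr hab hfree hK

theorem main_aux (hp2 : p ≠ 2) : ∀ n, Below.{u} p n := by
  intro n
  induction n with
  | zero => intro K _ _ _ h; omega
  | succ n ih =>
    intro K _ _ hs hlt hcop y hy
    rcases Nat.lt_or_ge (Nat.card K) n with h | h
    · exact ih K inferInstance inferInstance hs h hcop y hy
    have hB : Below.{u} p (Nat.card K) := by
      rwa [show Nat.card K = n by omega]
    by_cases htop : DispIn y (⊤ : Subgroup K) = ⊤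
    · exact inf_le_right.trans (Fx_le_C0 hB hp2 hy hcop htop)
    · have := DispIn_inf_Fx_le hB hy hcop (invar_DispIn ⊤) htop
      rwa [DispIn_DispIn_top hy hcop] at this

end Cfsg.Agent.H84.DispFix
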