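import Cfsg.Agent.H84.DispFix.Reduce
import Cfsg.Agent.H24.PGroupBasic

/-! The displacement fixed point theorem for a group of prime power order. -/

set_option autoImplicit false

open scoped commutatorElement

universe u

namespace Cfsg.Agent.H84.DispFix

variable {H : Type u} [Group H] {x : MulAut H}

theorem commutator_mul_left' (hc : commutator H ≤ Subgroup.center H) (a b c : H) :
    ⁅a * b, c⁆ = ⁅a, c⁆ * ⁅b, c⁆ := by
  have hz : ⁅b, c⁆ ∈ Subgroup.center H :=
    hc (Subgroup.commutator_mem_commutator (Subgroup.mem_top b) (Subgroup.mem_top c))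
  rw [commutatorElement_mul_left_eq_conj_mul,
    Subgroup.mem_center_iff.1 hz a, mul_inv_cancel_right, ← Subgroup.mem_center_iff.1 hz]

theorem commutator_mul_right' (hc : commutator H ≤ Subgroup.center H) (a b c : H) :
    ⁅a, b * c⁆ = ⁅a, b⁆ * ⁅a, c⁆ := by
  have h := commutator_mul_left' hc b c a
  have hz : ⁅a, b⁆ ∈ Subgroup.center H :=
    hc (Subgroup.commutator_mem_commutator (Subgroup.mem_top a) (Subgroup.mem_top b))
  rw [← commutatorElement_inv, h, mul_inv_rev, commutatorElement_inv, commutatorElement_inv,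
    Subgroup.mem_center_iff.1 hz]

theorem E_mul (u v : H) : ∃ z, z ∈ commutator H ∧
    (u * v)⁻¹ * x (u * v) = (u⁻¹ * x u) * (v⁻¹ * x v) * z := by
  refine ⟨((u⁻¹ * x u) * (v⁻¹ * x v))⁻¹ * ((u * v)⁻¹ * x (u * v)), ?_, by group⟩
  rw [← Abelianization.ker_of, MonoidHom.mem_ker]
  rw [map_mul, map_inv, inv_mul_eq_one]
  simp only [map_mul, map_inv, mul_inv_rev]
  ac_rfl

/-- The displacements by `x` itself generate all of them. -/
theorem DispIn_le_closure :
    DispIn x (⊤ : Subgroup H) ≤ Subgroup.closure (Set.range fun h : H => h⁻¹ * x h) :=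
  (Subgroup.closure_le _).2 (by
    rintro _ ⟨h, -, i, rfl⟩
    induction i with
    | zero => simp
    | succ i ih =>
      have e : h⁻¹ * (x ^ (i + 1)) h = (h⁻¹ * (x ^ i) h) * (((x ^ i) h)⁻¹ * x ((x ^ i) h)) := by
        rw [pow_succ', MulAut.mul_apply]; group
      rw [e]
      exact Subgroup.mul_mem _ ih (Subgroup.subset_closure ⟨_, rfl⟩))

/-- If all `[h, ⟨x⟩]` are abelian in class two, then `[x s, t] = [s, x t]`. -/
theorem commutator_shift (hc : commutator H ≤ Subgroup.center H)
    (hD : ∀ h : H, ∀ a ∈ D x h, ∀ b ∈ D x h, a * b = b * a) (u v : H) :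
    ⁅u⁻¹ * x u, x (v⁻¹ * x v)⁆ = ⁅x (u⁻¹ * x u), v⁻¹ * x v⁆ := by
  have hself : ∀ h : H, ⁅h⁻¹ * x h, x (h⁻¹ * x h)⁆ = 1 := fun h =>
    commutatorElement_eq_one_iff_mul_comm.2
      (hD h _ (E_mem_D h) _ (invar_D h _ (E_mem_D h)))
  obtain ⟨z, hz, he⟩ := E_mul (x := x) u v
  have hsum := hself (u * v)
  have hxz : x z ∈ Subgroup.center H := invar_of_characteristic (Subgroup.center H) z (hc hz)
  rw [he, map_mul x _ z, commutator_mul_central (hc hz) hxz, map_mul x,
    commutator_mul_left' hc, commutator_mul_right' hc, commutator_mul_right' hc,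
    hself u, hself v, one_mul, mul_one] at hsum
  rw [eq_inv_of_mul_eq_one_left hsum, commutatorElement_inv]

variable [Finite H] {p : ℕ} [hp : Fact p.Prime]

/-- The displacement fixed point theorem for a group of prime power order. -/
theorem Fx_le_C0_of_pGroup [Group.IsSolvable H] (hB : Below.{u} p (Nat.card H)) (hp2 : p ≠ 2)
    (hx : x ^ p = 1) (hcop : (Nat.card H).Coprime p) (htop : DispIn x (⊤ : Subgroup H) = ⊤)
    (hnt : Nontrivial H) {q : ℕ} [hq : Fact q.Prime] (hH : IsPGroup q H) : Fx x ≤ C0 x := by
  by_cases hgen : ∃ h, D x h ⊔ frattini H = ⊤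
  · obtain ⟨h, hh⟩ := hgen
    intro c hc
    exact le_C0 h ⟨(frattini_nongenerating hh).symm ▸ Subgroup.mem_top c, hc⟩
  have hΦ : Invar x (frattini H) := invar_of_characteristic _
  have hKne : ∀ h, D x h ⊔ frattini H ≠ ⊤ := fun h e => hgen ⟨h, e⟩
  have hKi : ∀ h, Invar x (D x h ⊔ frattini H) := fun h => invar_sup (invar_D h) hΦ
  have hder : commutator H ≤ frattini H := H24.commutator_le_frattini hH
  by_cases hab : ∀ h, ⁅D x h ⊔ frattini H, D x h ⊔ frattini H⁆ = ⊥
  · -- everything is abelian
    have hcomm : ∀ h, ∀ a ∈ D x h ⊔ frattini H, ∀ b ∈ D x h ⊔ frattini H, a * b = b * a :=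
      fun h a ha b hb => commutatorElement_eq_one_iff_mul_comm.1 (by
        rw [← Subgroup.mem_bot, ← hab h]; exact Subgroup.commutator_mem_commutator ha hb)
    have hΦc : frattini H ≤ Subgroup.center H := by
      intro a ha
      rw [Subgroup.mem_center_iff]
      intro g
      have hle : DispIn x (⊤ : Subgroup H) ≤ Subgroup.centralizer {a} :=
        DispIn_le fun h _ b hb => Subgroup.mem_centralizer_singleton_iff.2
          (hcomm h b (Subgroup.mem_sup_left hb) a (Subgroup.mem_sup_right ha))
      exact Subgroup.mem_centralizer_singleton_iff.1 (hle (htop.symm ▸ Subgroup.mem_top g))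
    have hc : commutator H ≤ Subgroup.center H := hder.trans hΦc
    by_cases hfix : commutator H ≤ Fx x
    · have hshift := commutator_shift hc fun h a ha b hb =>
        hcomm h a (Subgroup.mem_sup_left ha) b (Subgroup.mem_sup_left hb)
      have hsq : ∀ u v, ⁅x (x (u⁻¹ * x u)), v⁻¹ * x v⁆ = ⁅u⁻¹ * x u, v⁻¹ * x v⁆ := by
        intro u v
        have h := hshift (x u) v
        rw [← map_inv, ← map_mul] at h
        rw [← h, ← map_commutatorElement]
        exact mem_Fx.1 (hfix (Subgroup.commutator_mem_commutator (Subgroup.mem_top _)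
          (Subgroup.mem_top _)))
      have hcen : ∀ u, x (x (u⁻¹ * x u)) * (u⁻¹ * x u)⁻¹ ∈ Subgroup.center H := by
        intro u
        set s := u⁻¹ * x u with hs
        rw [Subgroup.mem_center_iff]
        intro g
        have hle : DispIn x (⊤ : Subgroup H) ≤ Subgroup.centralizer {x (x s) * s⁻¹} :=
          DispIn_le_closure.trans ((Subgroup.closure_le _).2 (by
            rintro _ ⟨v, rfl⟩
            have h1 : ⁅x (x s) * s⁻¹, v⁻¹ * x v⁆ = 1 := by
              rw [commutator_mul_left' hc, hsq, ← commutator_mul_left' hc, mul_inv_cancel,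
                commutatorElement_one_left]
            exact Subgroup.mem_centralizer_singleton_iff.2
              (commutatorElement_eq_one_iff_mul_comm.1 h1).symm))
        exact Subgroup.mem_centralizer_singleton_iff.1 (hle (htop.symm ▸ Subgroup.mem_top g))
      let π := QuotientGroup.mk' (Subgroup.center H)
      have hpi : ∀ h, π (x (x h)) = π h := by
        intro h
        have hle : DispIn x (⊤ : Subgroup H) ≤
            (π.comp ((x : H →* H).comp (x : H →* H))).eqLocus π :=
          DispIn_le_closure.trans ((Subgroup.closure_le _).2 (by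
            rintro _ ⟨u, rfl⟩
            show π (x (x (u⁻¹ * x u))) = π (u⁻¹ * x u)
            apply mul_inv_eq_one.1
            rw [← map_inv, ← map_mul]
            exact (QuotientGroup.eq_one_iff _).2 (hcen u)))
        exact hle (htop.symm ▸ Subgroup.mem_top h)
      have hev : ∀ (m : ℕ) (h : H), π ((x ^ (2 * m)) h) = π h := by
        intro m h
        induction m with
        | zero => rfl
        | succ m ih =>
          rw [show 2 * (m + 1) = (2 * m + 1) + 1 by omega, pow_succ', pow_succ',
            MulAut.mul_apply, MulAut.mul_apply, hpi, ih]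
      obtain ⟨m, hm⟩ := hp.out.odd_of_ne_two hp2
      have hE : ∀ h, π (x h) = π h := fun h => by
        have := hev (m + 1) h
        rwa [show 2 * (m + 1) = p + 1 by omega, pow_succ, hx, one_mul] at this
      have hZ : ∀ g : H, g ∈ Subgroup.center H := fun g => by
        refine (DispIn_le_closure.trans ((Subgroup.closure_le _).2 ?_)) (htop.symm ▸ Subgroup.mem_top g)
        rintro _ ⟨h, rfl⟩
        exact QuotientGroup.eq.1 (hE h).symm
      have hbot : commutator H = ⊥ := by
        rw [commutator_eq_bot_iff_center_eq_top, eq_top_iff]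
        exact fun g _ => hZ g
      exact (Fx_le_commutator hx hcop htop).trans (hbot.le.trans bot_le)
    · -- the derived subgroup is moved
      set W := DispIn x (commutator H) with hW
      have hWle : W ≤ commutator H := DispIn_le_self (invar_of_characteristic _)
      haveI : W.Normal := ⟨fun n hn g => by
        rw [Subgroup.mem_center_iff.1 (hc (hWle hn)) g, mul_inv_cancel_right]; exact hn⟩
      have hW0 : W ≠ ⊥ := fun e => hfix fun c hc' => by
        have := mem_DispIn (x := x) hc' 1
        rw [← hW, e, Subgroup.mem_bot, pow_one, inv_mul_eq_one] at this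
        exact this.symm
      refine Fx_le_of_normal hB hx hcop htop W (invar_DispIn _) hW0
        (DispIn_inf_Fx_le hB hx hcop (invar_of_characteristic _) fun e => ?_)
      have h1 : frattini H = ⊤ := top_unique (e ▸ hder)
      exact hKne 1 (by rw [h1, sup_top_eq])
  · -- some `D h ⊔ Φ` is not abelian
    push Not at hab
    obtain ⟨h, hh⟩ := hab
    set K := D x h ⊔ frattini H with hK
    haveI : K.Normal := Subgroup.Normal.of_commutator_le H (H := K) (hder.trans le_sup_right)
    set V0 := ⁅K, K⁆ ⊓ Subgroup.center H with hV0def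
    haveI : V0.Normal := inferInstance
    have hV0 : V0 ≠ ⊥ := H24.inf_center_ne_bot hH hh
    have hVi : Invar x V0 :=
      invar_inf (invar_commutator (hKi h) (hKi h)) (invar_of_characteristic _)
    by_cases hVF : V0 ⊓ Fx x = ⊥
    · exact Fx_le_of_normal hB hx hcop htop V0 hVi hV0 (hVF.le.trans bot_le)
    haveI : (V0 ⊓ Fx x).Normal := ⟨fun n hn g => by
      rw [Subgroup.mem_center_iff.1 hn.1.2 g, mul_inv_cancel_right]; exact hn⟩
    refine Fx_le_of_normal hB hx hcop htop _ (invar_inf hVi invar_Fx) hVF ?_
    intro v hv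
    refine mem_C0_of_central (V := V0 ⊓ Fx x) hB hx hcop (fun w hw => hw.1.2) (fun w hw => hw.2) ?_ (hKi h)
      (hKne h) (fun w hw => ?_) hv.1 hv.1.1.1
    · exact (Fx_le_C0_sup hB hx hcop htop _ (invar_inf hVi invar_Fx) hVF).trans
        (sup_le_sup_left inf_le_left _)
    · exact Subgroup.commutator_le_self K hw.1.1

end Cfsg.Agent.H84.DispFix
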