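import Cfsg.Agent.H84.DispFix.Basic

/-! Passage of the displacement fixed point property to subgroups and quotients. -/

set_option autoImplicit false

open scoped Pointwise commutatorElement

universe u

namespace Cfsg.Agent.H84.DispFix

/-- The property holds for every group of order below `n`. -/
def Below (p n : ℕ) : Prop :=
  ∀ (K : Type u) (_ : Group K) (_ : Finite K), Group.IsSolvable K → Nat.card K < n →
    (Nat.card K).Coprime p → ∀ y : MulAut K, y ^ p = 1 →
      DispIn y (⊤ : Subgroup K) ⊓ Fx y ≤ C0 y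

variable {H K : Type u} [Group H] [Group K] {x : MulAut H} {y : MulAut K} (f : K →* H)
  (hf : ∀ k, f (y k) = x (f k))

include hf

theorem map_pow_apply (i : ℕ) (k : K) : f ((y ^ i) k) = (x ^ i) (f k) := by
  induction i with
  | zero => rfl
  | succ i ih => rw [pow_succ', pow_succ', MulAut.mul_apply, MulAut.mul_apply, hf, ih]

theorem map_D (k : K) : (D y k).map f = D x (f k) := by
  rw [D, D, MonoidHom.map_closure]
  congr 1
  ext c
  constructor
  · rintro ⟨_, ⟨i, rfl⟩, rfl⟩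
    exact ⟨i, by rw [map_mul, map_inv, map_pow_apply f hf]⟩
  · rintro ⟨i, rfl⟩
    exact ⟨_, ⟨i, rfl⟩, by rw [map_mul, map_inv, map_pow_apply f hf]⟩

theorem map_DispIn (S : Subgroup K) : (DispIn y S).map f = DispIn x (S.map f) := by
  rw [DispIn, DispIn, MonoidHom.map_closure]
  congr 1
  ext c
  constructor
  · rintro ⟨_, ⟨k, hk, i, rfl⟩, rfl⟩
    exact ⟨f k, ⟨k, hk, rfl⟩, i, by rw [map_mul, map_inv, map_pow_apply f hf]⟩
  · rintro ⟨_, ⟨k, hk, rfl⟩, i, rfl⟩
    exact ⟨_, ⟨k, hk, i, rfl⟩, by rw [map_mul, map_inv, map_pow_apply f hf]⟩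

theorem map_Fx_le : (Fx y).map f ≤ Fx x := by
  rintro _ ⟨k, hk, rfl⟩
  exact (hf k).symm.trans (congrArg f (mem_Fx.1 hk))

theorem map_C0_le : (C0 y).map f ≤ C0 x := by
  rw [C0, Subgroup.map_iSup]
  refine iSup_le fun k => le_trans ?_ (le_C0 (f k))
  rw [← map_D f hf k]
  exact le_inf (Subgroup.map_mono inf_le_left)
    ((Subgroup.map_mono inf_le_right).trans (map_Fx_le f hf))

omit hf

theorem commutator_mul_central {a b v w : H} (hv : v ∈ Subgroup.center H)
    (hw : w ∈ Subgroup.center H) : ⁅a * v, b * w⁆ = ⁅a, b⁆ := by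
  have e1 : ∀ g : H, g * v = v * g := Subgroup.mem_center_iff.1 hv
  have e2 : ∀ g : H, g * w = w * g := Subgroup.mem_center_iff.1 hw
  rw [commutatorElement_def, commutatorElement_def]
  calc a * v * (b * w) * (a * v)⁻¹ * (b * w)⁻¹
      = a * (v * b) * (w * v⁻¹) * a⁻¹ * w⁻¹ * b⁻¹ := by group
    _ = a * (b * v) * (v⁻¹ * w) * a⁻¹ * w⁻¹ * b⁻¹ := by
        rw [e1 b, ← e2 v⁻¹]
    _ = a * b * (w * a⁻¹) * w⁻¹ * b⁻¹ := by group
    _ = a * b * a⁻¹ * b⁻¹ := by rw [← e2 a⁻¹]; group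

section Finite

variable [Finite H] {p : ℕ} [hp : Fact p.Prime]

/-- The fixed points in the displacements of a proper invariant subgroup. -/
theorem DispIn_inf_Fx_le [Group.IsSolvable H] (hB : Below.{u} p (Nat.card H)) (hx : x ^ p = 1)
    (hcop : (Nat.card H).Coprime p) {L : Subgroup H} (hL : Invar x L) (hne : L ≠ ⊤) :
    DispIn x L ⊓ Fx x ≤ C0 x := by
  let r : L →* L := ((x : H →* H).comp L.subtype).codRestrict L fun k => hL _ k.2
  have hr : Function.Injective r := fun a b hab =>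
    Subtype.ext (x.injective (congrArg Subtype.val hab))
  let y : MulAut L := MulEquiv.ofBijective r (Finite.injective_iff_bijective.1 hr)
  have hy : ∀ k, L.subtype (y k) = x (L.subtype k) := fun k => rfl
  have hy1 : y ^ p = 1 := by
    refine MulEquiv.ext fun k => Subtype.ext ?_
    have h := map_pow_apply L.subtype hy p k
    rw [hx] at h
    exact h
  have hlt : Nat.card L < Nat.card H := lt_of_le_of_ne
    (Nat.le_of_dvd Nat.card_pos (Subgroup.card_subgroup_dvd_card L))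
    fun h => hne (Subgroup.eq_top_of_card_eq L h)
  have hIH := hB L inferInstance inferInstance inferInstance hlt
    (hcop.coprime_dvd_left (Subgroup.card_subgroup_dvd_card L)) y hy1
  intro c hc
  have hcL : c ∈ L := DispIn_le_self hL hc.1
  have htop : (⊤ : Subgroup L).map L.subtype = L := by
    rw [← MonoidHom.range_eq_map, Subgroup.range_subtype]
  have hd : c ∈ (DispIn y (⊤ : Subgroup L)).map L.subtype := by
    rw [map_DispIn L.subtype hy, htop]; exact hc.1
  obtain ⟨k, hk, hkc⟩ := hd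
  refine map_C0_le L.subtype hy ⟨k, hIH ⟨hk, ?_⟩, hkc⟩
  subst hkc
  exact Subtype.ext hc.2

/-- Modulo a nontrivial invariant normal subgroup `V` the fixed points are generated as wanted. -/
theorem Fx_le_C0_sup [Group.IsSolvable H] (hB : Below.{u} p (Nat.card H)) (hx : x ^ p = 1)
    (hcop : (Nat.card H).Coprime p) (htop : DispIn x (⊤ : Subgroup H) = ⊤) (V : Subgroup H)
    [V.Normal] (hV : Invar x V) (hne : V ≠ ⊥) : Fx x ≤ C0 x ⊔ (V ⊓ Fx x) := by
  have hmap : V.map (x : H →* H) = V := Subgroup.eq_of_le_of_card_ge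
    (Subgroup.map_le_iff_le_comap.2 hV)
    (by rw [Subgroup.card_map_of_injective (f := (x : H →* H)) x.injective])
  let y : MulAut (H ⧸ V) := QuotientGroup.congr V V x hmap
  let f := QuotientGroup.mk' V
  have hy : ∀ h, f (x h) = y (f h) := fun h => (QuotientGroup.congr_mk V V x hmap h).symm
  have hy1 : y ^ p = 1 := by
    refine MulEquiv.ext fun q => ?_
    obtain ⟨h, rfl⟩ := QuotientGroup.mk'_surjective V q
    have := map_pow_apply f hy p h
    rw [hx] at this
    exact this.symm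
  have hlt : Nat.card (H ⧸ V) < Nat.card H := by
    rw [Subgroup.card_eq_card_quotient_mul_card_subgroup V]
    exact lt_mul_of_one_lt_right Nat.card_pos (Subgroup.one_lt_card_iff_ne_bot V |>.2 hne)
  have hIH := hB (H ⧸ V) inferInstance inferInstance inferInstance hlt
    (hcop.coprime_dvd_left ⟨Nat.card V, Subgroup.card_eq_card_quotient_mul_card_subgroup V⟩) y hy1
  have hC : C0 y ≤ (C0 x).map f := iSup_le fun q => by
    obtain ⟨h, rfl⟩ := QuotientGroup.mk'_surjective V q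
    rintro z ⟨hz, hzF⟩
    change z ∈ D y (f h) at hz
    rw [← map_D f hy h] at hz
    obtain ⟨d, hd, rfl⟩ := hz
    have hq : d⁻¹ * x d ∈ D x h ⊓ V :=
      ⟨(D x h).mul_mem ((D x h).inv_mem hd) (invar_D h d hd),
        QuotientGroup.eq.1 ((hy d).trans (mem_Fx.1 hzF)).symm⟩
    obtain ⟨k, hk, hfix⟩ := exists_fixed_mul hx hcop (invar_inf (invar_D h) hV) hq
    refine ⟨d * k, le_C0 h ⟨(D x h).mul_mem hd hk.1, hfix⟩, ?_⟩
    show ((d * k : H) : H ⧸ V) = (d : H ⧸ V)
    exact QuotientGroup.mk_mul_of_mem d hk.2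
  intro c hc
  have hfc : f c ∈ DispIn y (⊤ : Subgroup (H ⧸ V)) ⊓ Fx y := by
    refine ⟨?_, map_Fx_le f hy ⟨c, hc, rfl⟩⟩
    rw [← Subgroup.map_top_of_surjective f (QuotientGroup.mk'_surjective V),
      ← map_DispIn f hy, htop]
    exact ⟨c, Subgroup.mem_top _, rfl⟩
  obtain ⟨c0, hc0, he⟩ := hC (hIH hfc)
  have hv : c0⁻¹ * c ∈ V := QuotientGroup.eq.1 he
  rw [show c = c0 * (c0⁻¹ * c) by group]
  exact mul_mem (Subgroup.mem_sup_left hc0)
    (Subgroup.mem_sup_right ⟨hv, (Fx x).mul_mem ((Fx x).inv_mem (C0_le_Fx hc0)) hc⟩)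

/-- It is enough to deal with the fixed points of one nontrivial invariant normal subgroup. -/
theorem Fx_le_of_normal [Group.IsSolvable H] (hB : Below.{u} p (Nat.card H)) (hx : x ^ p = 1)
    (hcop : (Nat.card H).Coprime p) (htop : DispIn x (⊤ : Subgroup H) = ⊤) (V : Subgroup H)
    [V.Normal] (hV : Invar x V) (hne : V ≠ ⊥) (h : V ⊓ Fx x ≤ C0 x) : Fx x ≤ C0 x :=
  (Fx_le_C0_sup hB hx hcop htop V hV hne).trans (sup_le le_rfl h)

/-- A fixed central element in the derived group of a proper invariant subgroup. -/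
theorem mem_C0_of_central [Group.IsSolvable H] (hB : Below.{u} p (Nat.card H)) (hx : x ^ p = 1)
    (hcop : (Nat.card H).Coprime p) {V Q : Subgroup H} (hVc : V ≤ Subgroup.center H)
    (hVF : V ≤ Fx x) (hred : Fx x ≤ C0 x ⊔ V) (hQ : Invar x Q) (hne : Q ≠ ⊤) (hVQ : V ≤ Q)
    {v : H} (hv : v ∈ V) (hv' : v ∈ ⁅Q, Q⁆) : v ∈ C0 x := by
  haveI : V.Normal := ⟨fun n hn g => by
    rw [Subgroup.mem_center_iff.1 (hVc hn) g, mul_inv_cancel_right]; exact hn⟩
  set T := DispIn x Q ⊔ (C0 x ⊓ Q) with hT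
  have hQT : Q ≤ T ⊔ V := by
    intro q hq
    obtain ⟨c, ⟨hcQ, hcF⟩, d, hd, rfl⟩ := exists_fix_mul hx hcop hQ hq
    obtain ⟨c0, hc0, u, hu, rfl⟩ := Subgroup.mem_sup_of_normal_right.1 (hred hcF)
    have hc0Q : c0 ∈ Q := by simpa using Q.mul_mem hcQ (Q.inv_mem (hVQ hu))
    exact mul_mem (mul_mem (Subgroup.mem_sup_left (Subgroup.mem_sup_right ⟨hc0, hc0Q⟩))
      (Subgroup.mem_sup_right hu)) (Subgroup.mem_sup_left (Subgroup.mem_sup_left hd))
  have hvT : v ∈ T := by
    refine (Subgroup.commutator_le.2 fun a ha b hb => ?_ : ⁅Q, Q⁆ ≤ T) hv'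
    obtain ⟨a', ha', s, hs, rfl⟩ := Subgroup.mem_sup_of_normal_right.1 (hQT ha)
    obtain ⟨b', hb', t, ht, rfl⟩ := Subgroup.mem_sup_of_normal_right.1 (hQT hb)
    rw [commutator_mul_central (hVc hs) (hVc ht), commutatorElement_def]
    exact mul_mem (mul_mem (mul_mem ha' hb') (inv_mem ha')) (inv_mem hb')
  have hsub : C0 x ⊓ Q ≤ Subgroup.normalizer (DispIn x Q : Set H) :=
    inf_le_right.trans (le_normalizer_DispIn Q)
  have hmem : v ∈ ((DispIn x Q : Set H) * ((C0 x ⊓ Q : Subgroup H) : Set H) : Set H) := by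
    rw [← Subgroup.coe_mul_of_right_le_normalizer_left _ _ hsub]; exact hvT
  obtain ⟨d, hd, c, hc, rfl⟩ := hmem
  have hcF : c ∈ Fx x := C0_le_Fx hc.1
  have hdF : d ∈ Fx x := by simpa using mul_mem (hVF hv) (inv_mem hcF)
  exact mul_mem (DispIn_inf_Fx_le hB hx hcop hQ hne ⟨hd, hdF⟩) hc.1

end Finite

end Cfsg.Agent.H84.DispFix
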